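import Cfsg.Agent.H308.CA.Basic
import Cfsg.Agent.H35.CA.Det
import Cfsg.Agent.H908.CarterPC
import Cfsg.Agent.H683.CA.ExMat
import Cfsg.Agent.H466.CA.BridgeUni
import Cfsg.Agent.LieClassical.HermPerfect

/-!
# Groups normalising an image of the special unitary group act on the star ring of matrices
-/

set_option autoImplicit false
set_option linter.unusedSectionVars false
set_option linter.unusedVariables false

namespace Cfsg.Agent.H308.CA

open Subgroup Matrix
open scoped commutatorElement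

universe u

/-- homomorphisms of perfect groups with commuting values are trivial -/
theorem perf_trivial {P : Type*} [Group P] {H : Type*} [Group H] (hP : commutator P = ⊤) (χ : P →* H)
    (hc : ∀ a b, χ a * χ b = χ b * χ a) (x : P) : χ x = 1 := by
  have h1 : commutator P ≤ χ.ker := by
    rw [commutator_def, Subgroup.commutator_le]
    intro a _ b _
    rw [MonoidHom.mem_ker, map_commutatorElement]
    exact commutatorElement_eq_one_iff_mul_comm.2 (hc a b)
  rw [hP] at h1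
  exact h1 (mem_top x)

/-- automorphisms of `SU` modulo its centre -/
structure AD {n : ℕ} {E : Type} [CommRing E] [StarRing E] {Q : Type} [Group Q] (π : SU (Fin n) E →* Q) : Prop where
  surj : Function.Surjective π
  ker : ∀ u, π u = 1 ↔ u ∈ Subgroup.center (SU (Fin n) E)
  perf : commutator (SU (Fin n) E) = ⊤
  ex : ∃ 𝒯 : Set (RingAut (Matrix (Fin n) (Fin n) E)),
    (∀ θ ∈ 𝒯, ∀ a, θ (star a) = star (θ a)) ∧
    (∀ θ ∈ 𝒯, ∀ θ' ∈ 𝒯, θ * θ' ∈ 𝒯) ∧
    (∀ u : SU (Fin n) E, ∃ θ ∈ 𝒯, ∀ a, θ a = mt u * a * star (mt u)) ∧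
    (∀ α : MulAut Q, ∃ θ ∈ 𝒯, ∀ u v : SU (Fin n) E, mt v = θ (mt u) → α (π u) = π v) ∧
    ∀ θ ∈ 𝒯, ∀ θ' ∈ 𝒯, (∀ u v v' : SU (Fin n) E, mt v = θ (mt u) → mt v' = θ' (mt u) → π v = π v') → θ = θ'

section

variable {n : ℕ} {E : Type} [CommRing E] [StarRing E] {Q : Type} [Group Q] {π : SU (Fin n) E →* Q}

theorem AD.eq_iff (A : AD π) {u v : SU (Fin n) E} : π u = π v ↔ u⁻¹ * v ∈ Subgroup.center (SU (Fin n) E) := by
  rw [← A.ker, map_mul, map_inv, inv_mul_eq_one]

theorem exists_ta (h : Gd E) (A : AD π) {Γ : Type u} [Group Γ] (j : SU (Fin n) E →* Γ)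
    (hj : j.ker ≤ Subgroup.center (SU (Fin n) E)) (hN : ∀ g u, ∃ v, g * j u * g⁻¹ = j v) :
    ∃ T : TA Γ (Fin n) E, T.j = j := by
  classical
  have hD := Cfsg.Agent.H35.CA.det_st h
  choose V hV using hN
  -- elements with equal images
  have hπ : ∀ v v', j v = j v' → π v = π v' := by
    intro v v' hvv
    rw [A.eq_iff]
    apply hj
    rw [MonoidHom.mem_ker, map_mul, map_inv, hvv, inv_mul_cancel]
  -- elements with central images
  have hcen : ∀ v, (∀ w, j v * j w = j w * j v) → v ∈ Subgroup.center (SU (Fin n) E) := by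
    intro v hv
    have hz : ∀ w, v * w * v⁻¹ * w⁻¹ ∈ Subgroup.center (SU (Fin n) E) := by
      intro w
      apply hj
      rw [MonoidHom.mem_ker, map_mul, map_mul, map_mul, map_inv, map_inv, hv w]
      group
    let χ : SU (Fin n) E →* SU (Fin n) E := MonoidHom.mk' (fun w => v * w * v⁻¹ * w⁻¹) (by
      intro w1 w2
      have h1 := Subgroup.mem_center_iff.1 (hz w2) w1
      calc v * (w1 * w2) * v⁻¹ * (w1 * w2)⁻¹ = v * w1 * v⁻¹ * (v * w2 * v⁻¹ * w2⁻¹) * w1⁻¹ := by group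
        _ = v * w1 * v⁻¹ * w1⁻¹ * (w1 * (v * w2 * v⁻¹ * w2⁻¹)) * w1⁻¹ := by group
        _ = v * w1 * v⁻¹ * w1⁻¹ * ((v * w2 * v⁻¹ * w2⁻¹) * w1) * w1⁻¹ := by rw [h1]
        _ = v * w1 * v⁻¹ * w1⁻¹ * (v * w2 * v⁻¹ * w2⁻¹) := by group)
    have hχ := perf_trivial A.perf χ (fun a b => (Subgroup.mem_center_iff.1 (hz b) _))
    rw [Subgroup.mem_center_iff]
    intro w
    have h1 : v * w * v⁻¹ * w⁻¹ = 1 := hχ w
    calc w * v = (v * w * v⁻¹ * w⁻¹) * w * v := by rw [h1, one_mul]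
      _ = v * w := by group
  -- `V`
  have hVmul : ∀ g u1 u2, π (V g (u1 * u2)) = π (V g u1) * π (V g u2) := by
    intro g u1 u2
    rw [← map_mul]
    apply hπ
    rw [← hV, map_mul, map_mul, ← hV, ← hV]
    group
  have hVcen : ∀ g u, u ∈ Subgroup.center (SU (Fin n) E) → π (V g u) = 1 := by
    intro g u hu
    rw [A.ker]
    apply hcen
    intro w
    have h1 : j w = g * j (V g⁻¹ w) * g⁻¹ := by
      rw [← hV]; group
    have h2 : j u * j (V g⁻¹ w) = j (V g⁻¹ w) * j u := by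
      rw [← map_mul, ← map_mul, Subgroup.mem_center_iff.1 hu]
    rw [← hV, h1]
    calc g * j u * g⁻¹ * (g * j (V g⁻¹ w) * g⁻¹) = g * (j u * j (V g⁻¹ w)) * g⁻¹ := by group
      _ = g * (j (V g⁻¹ w) * j u) * g⁻¹ := by rw [h2]
      _ = _ := by group
  have hK1 : ∀ g u u', π u = π u' → π (V g u) = π (V g u') := by
    intro g u u' huu
    have h1 := hVcen g _ (A.eq_iff.1 huu)
    have h2 := hVmul g u (u⁻¹ * u')
    rw [mul_inv_cancel_left, h1, mul_one] at h2
    exact h2.symm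
  have hVV : ∀ g g' u, π (V (g * g') u) = π (V g (V g' u)) := by
    intro g g' u
    apply hπ
    rw [← hV, ← hV, ← hV]
    group
  have hV1 : ∀ u, π (V 1 u) = π u := by
    intro u
    apply hπ
    rw [← hV]
    group
  choose s hs using A.surj
  let α : Γ → MulAut Q := fun g =>
    { toFun := fun x => π (V g (s x))
      invFun := fun x => π (V g⁻¹ (s x))
      left_inv := fun x => by
        change π (V g⁻¹ (s (π (V g (s x))))) = x
        rw [hK1 g⁻¹ _ (V g (s x)) (hs _), ← hVV, inv_mul_cancel, hV1, hs]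
      right_inv := fun x => by
        change π (V g (s (π (V g⁻¹ (s x))))) = x
        rw [hK1 g _ (V g⁻¹ (s x)) (hs _), ← hVV, mul_inv_cancel, hV1, hs]
      map_mul' := fun x y => by
        rw [← hVmul]
        exact hK1 g _ _ (by rw [hs, map_mul, hs, hs]) }
  have hα : ∀ g u, α g (π u) = π (V g u) := fun g u => hK1 g _ _ (hs _)
  obtain ⟨𝒯, h1, h2, h3, h4, h5⟩ := A.ex
  choose Θ hΘ𝒯 hΘ using fun g => h4 (α g)
  have hex : ∀ θ ∈ 𝒯, ∀ u : SU (Fin n) E, ∃ v : SU (Fin n) E, mt v = θ (mt u) := by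
    intro θ hθ u
    exact ⟨mkSU (θ (mt u)) (by rw [← h1 θ hθ, ← map_mul, star_mt_mul, map_one]) (hD (Fin n) θ (h1 θ hθ) u), rfl⟩
  have huniq : ∀ g, ∀ θ ∈ 𝒯, ∀ θ' ∈ 𝒯, (∀ u v : SU (Fin n) E, mt v = θ (mt u) → π (V g u) = π v) →
      (∀ u v : SU (Fin n) E, mt v = θ' (mt u) → π (V g u) = π v) → θ = θ' := by
    intro g θ hθ θ' hθ' a b
    exact h5 θ hθ θ' hθ' fun u v v' e1 e2 => by rw [← a u v e1, b u v' e2]
  have hP : ∀ g, ∀ u v : SU (Fin n) E, mt v = Θ g (mt u) → π (V g u) = π v := by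
    intro g u v huv
    rw [← hα]; exact hΘ g u v huv
  have hmul : ∀ g g', Θ (g * g') = Θ g * Θ g' := by
    intro g g'
    refine huniq (g * g') _ (hΘ𝒯 _) _ (h2 _ (hΘ𝒯 g) _ (hΘ𝒯 g')) (hP _) ?_
    intro u v huv
    obtain ⟨w, hw⟩ := hex _ (hΘ𝒯 g') u
    rw [RingAut.mul_apply, ← hw] at huv
    rw [hVV, hK1 g _ _ (hP g' u w hw)]
    exact hP g w v huv
  refine ⟨⟨MonoidHom.mk' Θ hmul, fun g a => h1 _ (hΘ𝒯 g) a, j, ?_, ?_⟩, rfl⟩
  · intro u a
    obtain ⟨θ, hθ, hθu⟩ := h3 u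
    have h6 : Θ (j u) = θ := by
      refine huniq (j u) _ (hΘ𝒯 _) _ hθ (hP _) ?_
      intro w v hwv
      rw [hθu] at hwv
      have h7 : v = u * w * u⁻¹ := mt_injective (by rw [hwv, map_mul, map_mul, mt_inv])
      apply hπ
      rw [← hV, h7, map_mul, map_mul, map_inv]
    change Θ (j u) a = _
    rw [h6, hθu]
  · intro g u v huv
    change mt v = Θ g (mt u) at huv
    choose B hB using hex _ (hΘ𝒯 g)
    have hBm : ∀ u1 u2, B (u1 * u2) = B u1 * B u2 := by
      intro u1 u2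
      apply mt_injective
      rw [hB, map_mul, map_mul, map_mul, hB, hB]
    have hc : ∀ u, (B u)⁻¹ * V g u ∈ Subgroup.center (SU (Fin n) E) := fun u =>
      A.eq_iff.1 (hP g u (B u) (hB u)).symm
    have hc' : ∀ u, (j (B u))⁻¹ * (g * j u * g⁻¹) = j ((B u)⁻¹ * V g u) := by
      intro u
      rw [map_mul, map_inv, hV]
    let χ : SU (Fin n) E →* Γ := MonoidHom.mk' (fun u => (j (B u))⁻¹ * (g * j u * g⁻¹)) (by
      intro u1 u2
      have e1 : (j (B u1))⁻¹ * (g * j u1 * g⁻¹) * (j (B u2))⁻¹ = (j (B u2))⁻¹ * ((j (B u1))⁻¹ * (g * j u1 * g⁻¹)) := by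
        rw [hc', ← map_inv, ← map_mul, ← map_mul, Subgroup.mem_center_iff.1 (hc u1)]
      rw [hBm, map_mul, map_mul]
      calc (j (B u1) * j (B u2))⁻¹ * (g * (j u1 * j u2) * g⁻¹) =
            ((j (B u2))⁻¹ * ((j (B u1))⁻¹ * (g * j u1 * g⁻¹))) * (g * j u2 * g⁻¹) := by group
        _ = _ := by rw [← e1]; group)
    have hχ := perf_trivial A.perf χ (fun a b => by
      change (j (B a))⁻¹ * (g * j a * g⁻¹) * ((j (B b))⁻¹ * (g * j b * g⁻¹)) =
        (j (B b))⁻¹ * (g * j b * g⁻¹) * ((j (B a))⁻¹ * (g * j a * g⁻¹))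
      rw [hc', hc', ← map_mul, ← map_mul, Subgroup.mem_center_iff.1 (hc b)])
    have h6 : (j (B u))⁻¹ * (g * j u * g⁻¹) = 1 := hχ u
    have h7 : v = B u := mt_injective (by rw [huv, hB])
    rw [h7]
    exact (inv_mul_eq_one.1 h6).symm

/-- linear groups -/
theorem ad_lin (F : Type) [Field F] [Finite F] {n : ℕ} (hn : 3 ≤ n) :
    ∃ (Q : Type) (_ : Group Q) (π : SU (Fin n) (Ex F) →* Q), AD π := by
  have hcard : 3 ≤ Fintype.card (Fin n) := by rw [Fintype.card_fin]; exact hn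
  refine ⟨_, _, Cfsg.Agent.ClassicalGeometry.AutPSL.Root.pr.comp
    (Cfsg.Agent.H683.CA.toSL (ι := Fin n) (F := F)).toMonoidHom, ?_, ?_, ?_, ?_⟩
  · exact Cfsg.Agent.ClassicalGeometry.AutPSL.Root.pr_surjective.comp Cfsg.Agent.H683.CA.toSL.surjective
  · intro u
    change Cfsg.Agent.ClassicalGeometry.AutPSL.Root.pr (Cfsg.Agent.H683.CA.toSL u) = 1 ↔ _
    rw [Cfsg.Agent.ClassicalGeometry.AutPSL.Root.pr_eq_one_iff, Subgroup.mem_center_iff, Subgroup.mem_center_iff]
    constructor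
    · intro hc v
      apply Cfsg.Agent.H683.CA.toSL.injective
      rw [map_mul, map_mul, hc]
    · intro hc g
      obtain ⟨v, rfl⟩ := Cfsg.Agent.H683.CA.toSL.surjective g
      rw [← map_mul, ← map_mul, hc]
  · have h1 := Cfsg.Agent.LieClassical.SLGen.commutator_eq_top (ι := Fin n) (F := F) hcard
    have h2 := congrArg (Subgroup.map (Cfsg.Agent.H683.CA.toSL (ι := Fin n) (F := F)).symm.toMonoidHom) h1
    rw [commutator_def, Subgroup.map_commutator, ← MonoidHom.range_eq_map,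
      MonoidHom.range_eq_top.2 (Cfsg.Agent.H683.CA.toSL (ι := Fin n) (F := F)).symm.surjective] at h2
    rw [commutator_def]
    exact h2
  · refine ⟨Cfsg.Agent.H683.CA.SA (Fin n) (Ex F), ?_, ?_, ?_, ?_, ?_⟩
    · intro θ hθ a
      exact Cfsg.Agent.H683.CA.SA.star hθ a
    · intro θ hθ θ' hθ'
      exact mul_mem hθ hθ'
    · intro u
      exact ⟨_, Cfsg.Agent.H683.CA.inn_mem_SA (mt u) (star_mt_mul u), fun a => rfl⟩
    · intro α
      obtain ⟨θ, hθ⟩ := Cfsg.Agent.H683.CA.actPSL_surjective hn α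
      refine ⟨θ.1, θ.2, fun u v huv => ?_⟩
      have h1 := Cfsg.Agent.H683.CA.actPSL_apply θ u
      rw [hθ] at h1
      have h2 : Cfsg.Agent.H683.CA.act θ u = v := mt_injective (by rw [Cfsg.Agent.H683.CA.mt_act, huv])
      rw [h2] at h1
      exact h1
    · intro θ hθ θ' hθ' H
      have h1 : Cfsg.Agent.H683.CA.actPSL (⟨θ, hθ⟩ : Cfsg.Agent.H683.CA.SA (Fin n) (Ex F)) =
          Cfsg.Agent.H683.CA.actPSL ⟨θ', hθ'⟩ := by
        apply MulEquiv.ext
        intro x
        obtain ⟨x, rfl⟩ := Cfsg.Agent.ClassicalGeometry.AutPSL.Root.pr_surjective x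
        obtain ⟨u, rfl⟩ := Cfsg.Agent.H683.CA.toSL.surjective x
        rw [Cfsg.Agent.H683.CA.actPSL_apply, Cfsg.Agent.H683.CA.actPSL_apply]
        exact H u _ _ rfl rfl
      exact congrArg Subtype.val (Cfsg.Agent.H683.CA.actPSL_injective hcard h1)

open Cfsg.Agent.H466.CA.BridgeUni Cfsg.Agent.ClassicalGeometry.PSUAutCount Cfsg.Agent.ClassicalGeometry.UnitAutBasic Cfsg.Agent.LieClassical.HermBasic Cfsg.Agent.LieClassical.HermSiegel in
/-- unitary groups -/
theorem ad_uni (F : Type) [Field F] [Fintype F] [StarRing F] {n q : ℕ} (hF : Fintype.card F = q ^ 2) (hn : 3 ≤ n)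
    (h32 : ¬ (n = 3 ∧ q = 2)) (hst : ∀ x : F, star x = x ^ q) :
    ∃ (Q : Type) (_ : Group Q) (π : SU (Fin n) F →* Q), AD π := by
  refine ⟨_, _, (Cfsg.Agent.ClassicalGeometry.UnitAutBasic.pr n F q).comp (kap hst).toMonoidHom, ?_, ?_, ?_, ?_⟩
  · exact pr_surjective.comp (kap hst).surjective
  · intro u
    change pr n F q (kap hst u) = 1 ↔ _
    rw [show pr n F q (kap hst u) = 1 ↔ kap hst u ∈ Subgroup.center _ from QuotientGroup.eq_one_iff _, Subgroup.mem_center_iff, Subgroup.mem_center_iff]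
    constructor
    · intro hc v
      apply (kap hst).injective
      rw [map_mul, map_mul, hc]
    · intro hc g
      obtain ⟨v, rfl⟩ := (kap hst).surjective g
      rw [← map_mul, ← map_mul, hc]
  · have h1 := Cfsg.Agent.LieClassical.HermPerfect.commutator_SU_eq_top hF hn h32
    have h2 := congrArg (Subgroup.map (kap hst (n := n)).symm.toMonoidHom) h1
    rw [commutator_def, Subgroup.map_commutator, ← MonoidHom.range_eq_map,
      MonoidHom.range_eq_top.2 (kap hst (n := n)).symm.surjective] at h2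
    rw [commutator_def]
    exact h2
  · refine ⟨{θ | ∃ (A : Cfsg.GU n F q) (ρ : F ≃+* F), θ = th A ρ}, ?_, ?_, ?_, ?_, ?_⟩
    · rintro _ ⟨A, ρ, rfl⟩ a
      exact th_star hst A ρ a
    · rintro _ ⟨A, ρ, rfl⟩ _ ⟨A', ρ', rfl⟩
      obtain ⟨B, τ, h⟩ := exists_comp hF hst A A' ρ ρ'
      exact ⟨B, τ, h.symm⟩
    · intro u
      obtain ⟨B, hB, hBM⟩ := Cfsg.Agent.ClassicalGeometry.HermOrtho.exists_GU_of_isometry hF
        ((isom_iff hst _).2 (star_mt_mul u))
      have hgm : gm (⟨B, hB⟩ : Cfsg.GU n F q) = mt u := hBM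
      refine ⟨_, ⟨⟨B, hB⟩, RingEquiv.refl F, rfl⟩, fun b => ?_⟩
      rw [th_apply, gm_inv hst, hgm]
      congr 2
    · intro α
      obtain ⟨A, ρ, h⟩ := Cfsg.Agent.ClassicalGeometry.PSUAutMain.exists_toAut hF hn h32 α
      refine ⟨_, ⟨A, ρ, rfl⟩, fun u v huv => ?_⟩
      change α (pr n F q (kap hst u)) = pr n F q (kap hst v)
      rw [h, toAut_pr]
      congr 1
      apply mat_injective
      rw [mat_semiConj, mat_kap, mat_kap, huv]
    · rintro _ ⟨A, ρ, rfl⟩ _ ⟨A', ρ', rfl⟩ H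
      apply th_eq hF hn hst
      ext x
      obtain ⟨g, rfl⟩ := pr_surjective x
      obtain ⟨u, rfl⟩ := (kap hst).surjective g
      rw [toAut_pr, toAut_pr]
      have h1 := H u ((kap hst).symm (semiConj A ρ (kap hst u))) ((kap hst).symm (semiConj A' ρ' (kap hst u)))
        (by rw [← mat_kap hst, MulEquiv.apply_symm_apply, mat_semiConj, mat_kap])
        (by rw [← mat_kap hst, MulEquiv.apply_symm_apply, mat_semiConj, mat_kap])
      change pr n F q (kap hst _) = pr n F q (kap hst _) at h1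
      rwa [MulEquiv.apply_symm_apply, MulEquiv.apply_symm_apply] at h1

/-- **Extension**: a group normalising an image of `SU` with central kernel acts on the star ring. -/
theorem exists_ta' (h : Gd E) (hn : 4 ≤ n) {Γ : Type u} [Group Γ] (j : SU (Fin n) E →* Γ)
    (hj : j.ker ≤ Subgroup.center (SU (Fin n) E)) (hN : ∀ g u, ∃ v, g * j u * g⁻¹ = j v) :
    ∃ T : TA Γ (Fin n) E, T.j = j := by
  have h' := h
  cases h' with
  | lin F i _ =>
    obtain ⟨Q, _, π, A⟩ := ad_lin F (n := n) (by omega)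
    exact exists_ta h A j hj hN
  | uni F i s _ hs =>
    have := Fintype.ofFinite E
    obtain ⟨q, hq, hst⟩ := Cfsg.Agent.H908.CarterPC.exists_q hs
    obtain ⟨Q, _, π, A⟩ := ad_uni E hq (n := n) (by omega) (by omega) hst
    exact exists_ta h A j hj hN

end

end Cfsg.Agent.H308.CA
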