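import Cfsg.Agent.H308.CA.Step
import Cfsg.Agent.H35.CA.Det
import Cfsg.Agent.H908.CarterPC
import Cfsg.Agent.H957.CarLab
import Cfsg.Agent.H55.CA.TwoLin
import Cfsg.Agent.H911.CA.TwoUni
import Cfsg.Agent.H901.CA.Uni
import Cfsg.Agent.H689.CA.BorSt
import Cfsg.Agent.H481.CA.Inv
import Cfsg.Agent.H206.CA.ExLin
import Cfsg.Agent.H261.CA.ExUni
import Cfsg.Agent.H901.CA.Full
import Cfsg.Agent.H55.CA.OddIndex

/-!
# The facts on the coefficient rings; the groups `unitary E`
-/

set_option autoImplicit false
set_option linter.unusedSectionVars false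
set_option linter.unusedVariables false

namespace Cfsg.Agent.H308.CA

open Subgroup Pointwise Matrix

theorem ex_st {E : Type} [CommRing E] [StarRing E] (h : Gd E) : EXSt E := by
  cases h with
  | lin F i _ => exact Cfsg.Agent.H206.CA.ex_lin F
  | uni F i s _ hs => exact Cfsg.Agent.H261.CA.ex_uni _ hs

theorem two_st {E : Type} [CommRing E] [StarRing E] (h : Gd E) : TwoSt E := by
  cases h with
  | lin F i _ => exact Cfsg.Agent.H55.CA.two_lin F
  | uni F i s _ hs => exact Cfsg.Agent.H911.CA.two_uni _ hs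

section

variable {E : Type} [CommRing E] [StarRing E] (h : Gd E) {p : ℕ} (hp : p.Prime) [CharP E p]
include h hp

/-- `unitary E` is a `p'`-group -/
theorem not_dvd_unitary : ¬ p ∣ Nat.card (unitary E) := by
  have : Fact p.Prime := ⟨hp⟩
  have := h.finite
  intro hd
  obtain ⟨x, hx⟩ := exists_prime_orderOf_dvd_card' (G := unitary E) p hd
  have h1 : x ^ p = 1 := by rw [← hx]; exact pow_orderOf_eq_one x
  have h2 : (x : E) ^ p = 1 := by
    have := congrArg Subtype.val h1
    exact this
  have h3 := Cfsg.Agent.H689.CA.eq_one_of_pow h hp h2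
  have h4 : x = 1 := Subtype.ext h3
  rw [h4, orderOf_one] at hx
  exact hp.one_lt.ne hx

/-- `p`-th roots of norm one elements -/
theorem exists_root {l : E} (hl : star l * l = 1) : ∃ m : E, star m * m = 1 ∧ m ^ p = l := by
  have := h.finite
  have hc : Nat.Coprime (Nat.card (unitary E)) p := (Nat.coprime_comm.1 ((Nat.Prime.coprime_iff_not_dvd hp).2 (not_dvd_unitary h hp)))
  let L : unitary E := ⟨l, Unitary.mem_iff.2 ⟨hl, by rw [mul_comm]; exact hl⟩⟩
  obtain ⟨M, hM⟩ := (powCoprime hc).surjective L
  refine ⟨M, (Unitary.mem_iff.1 M.2).1, ?_⟩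
  have := congrArg Subtype.val hM
  exact this

theorem isUnit_of_ne {r : ℕ} (hr : r.Prime) (hrp : r ≠ p) : IsUnit (r : E) := by
  have hc : Nat.Coprime r p := (Nat.coprime_primes hr hp).2 hrp
  have h1 := (Nat.isCoprime_iff_coprime.2 hc).map (Int.castRingHom E)
  obtain ⟨a, b, hab⟩ := h1
  have h2 : ((p : ℤ) : E) = 0 := by rw [Int.cast_natCast]; exact CharP.cast_eq_zero E p
  refine IsUnit.of_mul_eq_one a ?_
  have h3 : a * (r : E) + b * (p : E) = 1 := by simpa using hab
  rw [CharP.cast_eq_zero E p, mul_zero, add_zero] at h3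
  rw [mul_comm]; exact h3

end

/-- square roots of one of norm one -/
theorem sq_eq_one {E : Type} [CommRing E] [StarRing E] (h : Gd E) {c : E} (h1 : star c * c = 1) (h2 : c ^ 2 = 1) :
    c = 1 ∨ c = -1 := by
  cases h with
  | lin F i _ =>
    obtain ⟨a, b⟩ := c
    have h3 : ((b * a, a * b) : F × F) = (1, 1) := h1
    have h4 : ((a ^ 2, b ^ 2) : F × F) = (1, 1) := h2
    rw [Prod.mk.injEq] at h3 h4
    rcases sq_eq_one_iff.1 h4.1 with ha | ha
    · left
      have hb : b = 1 := by have := h3.1; rwa [ha, mul_one] at this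
      rw [ha, hb]; rfl
    · right
      have hb : b = -1 := by
        have := h3.1
        rw [ha] at this
        linear_combination -this
      rw [ha, hb]; rfl
  | uni F i s _ hs =>
    have h3 : (c - 1) * (c + 1) = 0 := by linear_combination h2
    rcases mul_eq_zero.1 h3 with h4 | h4
    · exact Or.inl (by linear_combination h4)
    · exact Or.inr (by linear_combination h4)

end Cfsg.Agent.H308.CA
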