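import Cfsg.Agent.H308.CA.Basic
import Cfsg.Agent.H248.CA.On

/-!
# Families of symmetric idempotents with equal ranks are conjugate under `SU`
-/

set_option autoImplicit false
set_option linter.unusedSectionVars false

namespace Cfsg.Agent.H308.CA

open Matrix

/-- (FAM) complete families with the same ranks are conjugate -/
def FamSt (E : Type) [CommRing E] [StarRing E] : Prop :=
  ∀ (ι κ : Type) [Fintype ι] [DecidableEq ι] [Fintype κ] [DecidableEq κ] (e f : κ → Matrix ι ι E),
    (∀ i, IsP (e i)) → (∀ i j, i ≠ j → e i * e j = 0) → ∑ i, e i = 1 →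
    (∀ i, IsP (f i)) → (∀ i j, i ≠ j → f i * f j = 0) → ∑ i, f i = 1 → (∀ i, rk (e i) = rk (f i)) →
    ∃ g : SU ι E, ∀ i, mt g * e i * star (mt g) = f i

/-- (EIG) the eigenspace alternative -/
def EigSt (E : Type) [CommRing E] [StarRing E] : Prop :=
  ∀ (ι : Type) [Fintype ι] [DecidableEq ι] (r : ℕ), r.Prime → r ≠ 2 → IsUnit (r : E) → r ∣ Nat.card (unitary E) →
    ∀ (x : SU ι E) (m : E), star m * m = 1 → mt x ^ r = m ^ r • (1 : Matrix ι ι E) → ¬ Sc (mt x) 1 →
      (∃ (g : SU ι E) (a : ℕ), ¬ a ≡ 1 [MOD r] ∧ Sc (mt (g * x * g⁻¹)) (mt x ^ a)) ∨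
      ∃ e : Matrix ι ι E, IsP e ∧ e ≠ 0 ∧ e ≠ 1 ∧
        ∀ θ : RingAut (Matrix ι ι E), (∀ a, θ (star a) = star (θ a)) → Sc (θ (mt x)) (mt x) → θ e = e

section

variable {ι κ : Type} [Fintype ι] [DecidableEq ι] [Fintype κ] [DecidableEq κ] {E : Type} [CommRing E] [StarRing E]

/-- a permutation carrying one labelling into another with the same fibres -/
theorem exists_perm (c c' : ι → κ) (h : ∀ i, Fintype.card {x // c x = i} = Fintype.card {x // c' x = i}) :
    ∃ σ : Equiv.Perm ι, ∀ x, c' (σ x) = c x := by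
  have e : ∀ i, Nonempty ({x // c x = i} ≃ {x // c' x = i}) := fun i => Fintype.card_eq.1 (h i)
  let F : ι ≃ ι := (Equiv.sigmaFiberEquiv c).symm.trans
    ((Equiv.sigmaCongrRight fun i => (e i).some).trans (Equiv.sigmaFiberEquiv c'))
  refine ⟨F, fun x => ?_⟩
  exact ((e (c x)).some ⟨x, rfl⟩).2

/-- the permutation matrix -/
def pm (E : Type) [CommRing E] (σ : Equiv.Perm ι) : Matrix ι ι E := σ.toPEquiv.toMatrix

theorem star_pm (σ : Equiv.Perm ι) : star (pm E σ) = pm E σ.symm := by
  ext x y
  simp only [pm, Matrix.star_apply, PEquiv.toMatrix_apply, Equiv.toPEquiv_apply, Option.mem_def, Option.some.injEq]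
  by_cases h : σ y = x
  · have h' : σ.symm x = y := by rw [← h, Equiv.symm_apply_apply]
    rw [if_pos h, if_pos h', star_one]
  · have h' : ¬ σ.symm x = y := fun h2 => h (by rw [← h2, Equiv.apply_symm_apply])
    rw [if_neg h, if_neg h', star_zero]

theorem pm_mul (σ : Equiv.Perm ι) (M : Matrix ι ι E) : pm E σ * M = M.submatrix σ id := by
  unfold pm
  rw [PEquiv.toMatrix_toPEquiv_mul]

theorem mul_pm (σ : Equiv.Perm ι) (M : Matrix ι ι E) : M * pm E σ = M.submatrix id σ.symm := by
  unfold pm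
  rw [PEquiv.mul_toMatrix_toPEquiv]

theorem star_pm_mul (σ : Equiv.Perm ι) : star (pm E σ) * pm E σ = 1 := by
  rw [star_pm, pm_mul]
  ext x y
  rw [Matrix.submatrix_apply]
  simp only [pm, PEquiv.toMatrix_apply, Equiv.toPEquiv_apply, Option.mem_def, Option.some.injEq, Equiv.apply_symm_apply,
    id, Matrix.one_apply]

theorem pm_dg (σ : Equiv.Perm ι) (c c' : ι → κ) (h : ∀ x, c' (σ x) = c x) (i : κ) :
    pm E σ.symm * dg (fun x => c x = i) * star (pm E σ.symm) = dg (fun x => c' x = i) := by
  rw [star_pm, pm_mul, mul_pm]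
  ext x y
  simp only [dg, Matrix.submatrix_apply, Matrix.diagonal_apply, id, Equiv.symm_symm]
  have h1 : c' x = c (σ.symm x) := by rw [← h, Equiv.apply_symm_apply]
  simp only [EmbeddingLike.apply_eq_iff_eq, h1]

theorem fam_of (hON : ONSt E) (hrk : ∀ (u : SU ι E) (p : ι → Prop) [DecidablePred p],
    rk (star (mt u) * dg p * mt u) = Fintype.card {x // p x}) (e f : κ → Matrix ι ι E)
    (he : ∀ i, IsP (e i)) (heo : ∀ i j, i ≠ j → e i * e j = 0) (hes : ∑ i, e i = 1)
    (hf : ∀ i, IsP (f i)) (hfo : ∀ i j, i ≠ j → f i * f j = 0) (hfs : ∑ i, f i = 1) (hr : ∀ i, rk (e i) = rk (f i)) :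
    ∃ g : SU ι E, ∀ i, mt g * e i * star (mt g) = f i := by
  obtain ⟨u, c, hc⟩ := hON ι κ e he heo hes
  obtain ⟨v, c', hc'⟩ := hON ι κ f hf hfo hfs
  obtain ⟨σ, hσ⟩ := exists_perm c c' fun i => by
    have := hr i
    rwa [hc i, hc' i, hrk, hrk] at this
  set Q : Matrix ι ι E := pm E σ.symm with hQ
  have hQQ : star Q * Q = 1 := star_pm_mul _
  have hdQ : star Q.det * Q.det = 1 := by
    rw [← Matrix.det_conjTranspose, ← Matrix.det_mul, ← Matrix.star_eq_conjTranspose, hQQ, Matrix.det_one]
  rcases isEmpty_or_nonempty ι with hι | ⟨⟨x0⟩⟩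
  · exact ⟨1, fun i => Matrix.ext fun x => hι.elim x⟩
  set a : ι → E := Function.update (fun _ => 1) x0 (star Q.det) with ha
  have haa : ∀ x, star (a x) * a x = 1 := by
    intro x
    by_cases hx : x = x0
    · rw [ha, hx, Function.update_self, star_star, mul_comm, hdQ]
    · rw [ha, Function.update_of_ne hx, star_one, one_mul]
  have hDD : star (Matrix.diagonal a) * Matrix.diagonal a = 1 := by
    rw [Matrix.star_eq_conjTranspose, Matrix.diagonal_conjTranspose, Matrix.diagonal_mul_diagonal, ← Matrix.diagonal_one]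
    congr 1
    funext x
    exact haa x
  have hdD : (Matrix.diagonal a).det = star Q.det := by
    rw [Matrix.det_diagonal, ha, Finset.prod_update_of_mem (Finset.mem_univ _), Finset.prod_const_one, mul_one]
  have hDg : ∀ i, Matrix.diagonal a * dg (fun x => c' x = i) * star (Matrix.diagonal a) = dg (fun x => c' x = i) := by
    intro i
    rw [Matrix.star_eq_conjTranspose, Matrix.diagonal_conjTranspose, dg, Matrix.diagonal_mul_diagonal,
      Matrix.diagonal_mul_diagonal]
    congr 1
    funext x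
    rw [Pi.star_apply, mul_right_comm, mul_comm (a x), haa, one_mul]
  set w : Matrix ι ι E := star (mt v) * Matrix.diagonal a * Q * mt u with hw
  have hsw : star w = star (mt u) * star Q * star (Matrix.diagonal a) * mt v := by
    rw [hw, star_mul, star_mul, star_mul, star_star]
    simp only [mul_assoc]
  have hww : star w * w = 1 := by
    rw [hsw, hw]
    calc star (mt u) * star Q * star (Matrix.diagonal a) * mt v * (star (mt v) * Matrix.diagonal a * Q * mt u) =
          star (mt u) * (star Q * (star (Matrix.diagonal a) * (mt v * star (mt v)) * Matrix.diagonal a) * Q) * mt u := by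
          simp only [mul_assoc]
      _ = 1 := by rw [mt_mul_star, mul_one, hDD, mul_one, hQQ, mul_one, star_mt_mul]
  have hwd : w.det = 1 := by
    rw [hw, Matrix.det_mul, Matrix.det_mul, Matrix.det_mul, hdD, mt_det, mul_one, Matrix.star_eq_conjTranspose,
      Matrix.det_conjTranspose, mt_det, star_one, one_mul, hdQ]
  refine ⟨mkSU w hww hwd, fun i => ?_⟩
  rw [mt_mkSU, hsw, hc i, hc' i, hw]
  calc star (mt v) * Matrix.diagonal a * Q * mt u * (star (mt u) * dg (fun x => c x = i) * mt u) *
        (star (mt u) * star Q * star (Matrix.diagonal a) * mt v) =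
        star (mt v) * (Matrix.diagonal a * (Q * ((mt u * star (mt u)) * dg (fun x => c x = i) * (mt u * star (mt u))) *
          star Q) * star (Matrix.diagonal a)) * mt v := by simp only [mul_assoc]
    _ = _ := by rw [mt_mul_star, one_mul, mul_one, pm_dg σ c c' hσ i, hDg]

end

theorem fam_st {E : Type} [CommRing E] [StarRing E] (h : Gd E) : FamSt E :=
  fun _ _ _ _ _ _ e f he heo hes hf hfo hfs hr =>
    fam_of (Cfsg.Agent.H248.CA.onSt h) (fun u p _ => Cfsg.Agent.H248.CA.rk_conj h u p) e f he heo hes hf hfo hfs hr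

end Cfsg.Agent.H308.CA
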