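import Cfsg.Agent.H381.Car.Wp

/-!
# Group theory for the type A block: Lemma X and central elements modulo a normal subgroup
-/

set_option autoImplicit false
set_option linter.unusedSectionVars false
set_option linter.unusedVariables false

namespace Cfsg.Agent.H308.CA

open Subgroup Pointwise
open Cfsg.Agent.Solvable.Carter Cfsg.Agent.H18.Carter Cfsg.Agent.H381.Car

universe u

/-- all smaller groups have conjugate Carter subgroups -/
def Sml (G : Type u) [Group G] : Prop := ∀ (B : Type u) [Group B] [Finite B], Nat.card B < Nat.card G → CC B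

variable {G : Type u} [Group G]

theorem Sml.sub [Finite G] (h : Sml G) {M : Subgroup G} (hM : M ≠ ⊤) : CC M :=
  h M (Cfsg.Agent.Lib.SolvableNormalP.card_lt_of_ne_top hM)

theorem Sml.of_le [Finite G] (h : Sml G) {B : Type u} [Group B] [Finite B] (hB : Nat.card B ≤ Nat.card G) : Sml B :=
  fun _ _ _ hC => h _ (lt_of_lt_of_le hC hB)

theorem Sml.subgroup [Finite G] (h : Sml G) (M : Subgroup G) : Sml M := h.of_le (card_le_card_group M)

theorem Sml.quot [Finite G] (h : Sml G) (N : Subgroup G) [N.Normal] : Sml (G ⧸ N) :=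
  h.of_le (Nat.card_le_card_of_surjective _ (QuotientGroup.mk'_surjective N))

theorem carter_map [Finite G] (h : Sml G) {H : Type u} [Group H] {f : G →* H} (hf : Function.Surjective f)
    {K : Subgroup G} (hK : IsCarter K) : IsCarter (K.map f) :=
  hK.map hf fun M hM => h.sub hM

/-- `CC` of `K X` for proper or improper `K X`: the `w`-principle with `Sml` -/
theorem w_of_sml [Finite G] (h : Sml G) {K X : Subgroup G} (hK : IsCarter K) {s : G}
    (hs : s ∈ normalizer (X : Set G)) (hc : ∀ k ∈ K, s * k * s⁻¹ * k⁻¹ ∈ X) : s ∈ K ⊔ X := by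
  by_cases htop : K ⊔ X = ⊤
  · rw [htop]; trivial
  · exact w_principle_of (h.sub htop) hK hs hc

/-- the analogue of (A1): `K, K^s ≤ C` implies `s ∈ C` -/
theorem mem_of_conj_le [Finite G] (h : Sml G) {K C : Subgroup G} (hK : IsCarter K) (hKC : K ≤ C) {s : G}
    (hs : MulAut.conj s • K ≤ C) : s ∈ C := by
  by_cases htop : C = ⊤
  · rw [htop]; trivial
  obtain ⟨y, hy, hh⟩ := exists_conj_of_le (h.sub htop) (hK.conj s) hK hs hKC
  rw [cj_cj, cj_eq_self_iff, hK.2] at hh
  have h2 := mul_mem (inv_mem hy) (hKC hh)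
  rwa [inv_mul_cancel_left] at h2

/-- **Lemma X modulo a normal subgroup central in `N`.** -/
theorem lemma_x_mod [Finite G] (hF : Fpf.{u}) (h : Sml G) (N Z : Subgroup G) [N.Normal] [Z.Normal] (hZN : Z ≤ N)
    (hZc : ∀ z ∈ Z, ∀ n ∈ N, z * n = n * z) {K : Subgroup G} (hK : IsCarter K) {l : ℕ} [hl : Fact l.Prime]
    (hKN : ∀ k ∈ K, k ∈ N → ∃ n : ℕ, k ^ l ^ n ∈ Z) :
    ∃ P : Subgroup G, P ≤ N ∧ IsPGroup l P ∧ ¬ l ∣ P.relIndex N ∧ K ≤ normalizer (P : Set G) := by
  let π := QuotientGroup.mk' Z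
  have hπ : Function.Surjective π := QuotientGroup.mk'_surjective Z
  have hNn : (N.map π).Normal := Subgroup.Normal.map inferInstance π hπ
  have hl1 : IsPGroup l (K.map π ⊓ N.map π : Subgroup (G ⧸ Z)) := by
    rintro ⟨x, ⟨k, hk, hkx⟩, ⟨n, hn, hnx⟩⟩
    have h1 : k⁻¹ * n ∈ Z := QuotientGroup.eq.1 (hkx.trans hnx.symm)
    have hkN : k ∈ N := by
      have := mul_mem hn (inv_mem (hZN h1))
      have e : n * (k⁻¹ * n)⁻¹ = k := by group
      rwa [e] at this
    obtain ⟨m, hm⟩ := hKN k hk hkN
    refine ⟨m, Subtype.ext ?_⟩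
    change x ^ l ^ m = 1
    rw [← hkx, ← map_pow]
    exact (QuotientGroup.eq_one_iff _).2 hm
  obtain ⟨P, hPN, hPp, hPi, hPK⟩ := lemma_x' hF (h.quot Z) (N.map π) (carter_map h hπ hK)
    (by rw [normalizer_eq_top]; exact le_top) hl1
  -- the preimage
  set P0 := P.comap π with hP0
  have hZP0 : Z ≤ P0 := by
    intro z hz
    rw [hP0, mem_comap]
    have : π z = 1 := (QuotientGroup.eq_one_iff _).2 hz
    rw [this]; exact one_mem _
  have hP0N : P0 ≤ N := by
    intro x hx
    obtain ⟨n, hn, hnx⟩ := hPN hx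
    have h1 : n⁻¹ * x ∈ Z := QuotientGroup.eq.1 hnx
    have := mul_mem hn (hZN h1)
    rwa [mul_inv_cancel_left] at this
  have hKP0 : K ≤ normalizer (P0 : Set G) := by
    intro k hk
    rw [mem_normalizer_iff]
    intro x
    have h1 := hPK (mem_map_of_mem π hk)
    rw [mem_normalizer_iff] at h1
    have h2 := h1 (π x)
    rw [hP0, mem_comap, mem_comap, map_mul, map_mul, map_inv]
    exact h2
  -- the elements of `l`-power order of `P0`
  have hmap : P0.map π = P := map_comap_eq_self_of_surjective hπ P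
  obtain ⟨Q⟩ : Nonempty (Sylow l P0) := inferInstance
  have hQn : (Q : Subgroup P0).Normal := by
    -- `P0 = Q Z`
    have hZ0 : ∀ z ∈ Z.subgroupOf P0, ∀ x : P0, z * x = x * z := by
      intro z hz x
      exact Subtype.ext (hZc z hz x (hP0N x.2))
    have hZn0 : (Z.subgroupOf P0).Normal := inferInstance
    have hq : IsPGroup l (P0 ⧸ Z.subgroupOf P0) := by
      intro x
      obtain ⟨x, rfl⟩ := QuotientGroup.mk_surjective x
      obtain ⟨m, hm⟩ := hPp ⟨π x, x.2⟩
      refine ⟨m, ?_⟩
      rw [← QuotientGroup.mk_pow, QuotientGroup.eq_one_iff, mem_subgroupOf]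
      have h3 := congrArg Subtype.val hm
      change (π x) ^ l ^ m = 1 at h3
      rw [← map_pow] at h3
      exact (QuotientGroup.eq_one_iff _).1 h3
    have hsup : (Q : Subgroup P0) ⊔ Z.subgroupOf P0 = ⊤ := by
      have h4 : (Q : Subgroup P0).index.Coprime l := (Nat.Prime.coprime_iff_not_dvd hl.out).2 Q.not_dvd_index |>.symm
      have h5 : ((Q : Subgroup P0) ⊔ Z.subgroupOf P0).index ∣ (Q : Subgroup P0).index := index_dvd_of_le le_sup_left
      have h6 : ((Q : Subgroup P0) ⊔ Z.subgroupOf P0).index ∣ (Z.subgroupOf P0).index := index_dvd_of_le le_sup_right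
      obtain ⟨m, hm⟩ := IsPGroup.iff_card.1 hq
      rw [← index_eq_card] at hm
      rw [hm] at h6
      have h7 : Nat.gcd (Q : Subgroup P0).index (l ^ m) = 1 := Nat.Coprime.pow_right m h4
      have h8 := Nat.dvd_gcd h5 h6
      rw [h7, Nat.dvd_one] at h8
      exact index_eq_one.1 h8
    rw [← normalizer_eq_top_iff, eq_top_iff, ← hsup]
    refine sup_le le_normalizer ?_
    intro z hz
    rw [mem_normalizer_iff]
    intro x
    rw [hZ0 z hz x, mul_inv_cancel_right]
  refine ⟨(Q : Subgroup P0).map P0.subtype, ?_, ?_, ?_, ?_⟩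
  · rintro _ ⟨x, -, rfl⟩
    exact hP0N x.2
  · exact Q.2.map _
  · have hle : (Q : Subgroup P0).map P0.subtype ≤ P0 := map_subtype_le _
    rw [← relIndex_mul_relIndex _ _ _ hle hP0N]
    refine Nat.Prime.not_dvd_mul hl.out ?_ ?_
    · rw [relIndex, subgroupOf, comap_map_eq_self_of_injective P0.subtype_injective]
      exact Q.not_dvd_index
    · have h8 : P0.relIndex N = P.relIndex (N.map π) := by
        rw [hP0, relIndex_comap]
      rw [h8]; exact hPi
  · -- characteristic
    have hch : (Q : Subgroup P0).Characteristic := Sylow.characteristic_of_normal Q hQn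
    intro k hk
    have hk0 := hKP0 hk
    let f : MulAut P0 := (MulAut.conjNormal (H := P0.subgroupOf (normalizer (P0 : Set G))) (⟨k, hk0⟩ : normalizer (P0 : Set G)) |> fun g =>
      ((subgroupOfEquivOfLe (le_normalizer (H := P0))).symm.trans g).trans (subgroupOfEquivOfLe (le_normalizer (H := P0))))
    have hf : ∀ x : P0, ((f x : P0) : G) = k * x * k⁻¹ := fun x => rfl
    rw [mem_normalizer_iff_map_conj_eq, map_map]
    have h9 : (Q : Subgroup P0).map f.toMonoidHom = Q := by
      rw [characteristic_iff_map_eq] at hch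
      exact hch f
    have h10 : ((MulAut.conj k : G ≃* G) : G →* G).comp P0.subtype = P0.subtype.comp f.toMonoidHom := by
      ext x
      exact (hf x).symm
    rw [h10, ← map_map, h9]

end Cfsg.Agent.H308.CA
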