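import Cfsg.Agent.H308.CA.Facts
import Cfsg.Agent.H689.CA.Bork
import Cfsg.Agent.H911.CA.Syl2

/-!
# Claim 1: a Carter subgroup fixes a proper symmetric idempotent, unless `n` is a power of `2`
-/

set_option autoImplicit false
set_option linter.unusedSectionVars false
set_option linter.unusedVariables false

namespace Cfsg.Agent.H308.CA

open Subgroup Pointwise Matrix
open Cfsg.Agent.Solvable.Carter Cfsg.Agent.H18.Carter Cfsg.Agent.H381.Car

universe u

theorem not_two_pow_of_dvd {r n : ℕ} (hr : r.Prime) (hr2 : r ≠ 2) (h : r ∣ n) : ¬ ∃ a : ℕ, n = 2 ^ a := by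
  rintro ⟨a, rfl⟩
  have h1 := hr.dvd_of_dvd_pow h
  exact hr2 ((Nat.prime_dvd_prime_iff_eq hr Nat.prime_two).1 h1)

section

variable {Γ : Type u} [Group Γ] [Finite Γ] {ι : Type} [Fintype ι] [DecidableEq ι] {E : Type} [CommRing E] [StarRing E]
  (h : Gd E) (T : TA Γ ι E) (hS : Sml Γ) {K : Subgroup Γ} (hK : IsCarter K) {p : ℕ} (hp : p.Prime) [CharP E p]
include h hS hK hp

/-- a unipotent element of order `p` of `SU`, fixed by `K` -/
theorem exists_unip [Nonempty ι] (hex : Hex T K p) :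
    ∃ y : SU ι E, y ^ p = 1 ∧ y ≠ 1 ∧ ¬ Sc (mt y) 1 ∧ (∀ k ∈ K, T.ρ k (mt y) = mt y) ∧
      ∃ x : SU ι E, T.j x ∈ K ∧ Sc (mt x) (mt y) := by
  have hpf : Fact p.Prime := ⟨hp⟩
  have hD := Cfsg.Agent.H35.CA.det_st h
  obtain ⟨x, hxK, hx1, hxp, hxK'⟩ := T.central_mod hD hS hK hex
  obtain ⟨l, hl, hxl⟩ := id hxp
  obtain ⟨m, hm, hml⟩ := exists_root h hp hl
  have hmm : star (star m) * star m = 1 := by rw [star_star, mul_comm, hm]
  set Y : Matrix ι ι E := star m • mt x with hY
  have hYY : star Y * Y = 1 := by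
    rw [hY, star_smul, smul_mul_smul_comm, star_mt_mul, hmm, one_smul]
  have hYp : Y ^ p = 1 := by
    rw [hY, smul_pow, hxl, smul_smul, ← star_pow, hml, hl, one_smul]
  have hYd : Y.det = 1 := by
    refine Cfsg.Agent.H689.CA.eq_one_of_pow h hp ?_
    rw [← Matrix.det_pow, hYp, Matrix.det_one]
  have hSc : Sc (mt x) Y := Sc.symm ⟨star m, hmm, rfl⟩
  have hY1 : ¬ Sc Y 1 := fun hc => hx1 (hSc.trans hc)
  refine ⟨mkSU Y hYY hYd, ?_, ?_, ?_, ?_, x, hxK, hSc⟩
  · apply mt_injective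
    rw [map_pow, mt_mkSU, hYp, map_one]
  · intro hc
    apply hY1
    have h1 := congrArg (mt : SU ι E → Matrix ι ι E) hc
    rw [mt_mkSU, map_one] at h1
    rw [h1]
    exact Sc.refl _
  · exact hY1
  · intro k hk
    rw [mt_mkSU]
    obtain ⟨c, hc, hck⟩ := ((T.ρ_sc k hSc.symm).trans (hxK' k hk)).trans hSc
    have h1 := congrArg (fun z => z ^ p) hck
    rw [← map_pow, hYp, map_one, smul_pow, hYp] at h1
    obtain ⟨i⟩ := (inferInstance : Nonempty ι)
    have h2 := congrFun (congrFun h1 i) i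
    rw [Matrix.smul_apply, Matrix.one_apply_eq, smul_eq_mul, mul_one] at h2
    have h3 := Cfsg.Agent.H689.CA.eq_one_of_pow h hp h2.symm
    rw [hck, h3, one_smul]

/-- it is bad -/
theorem exists_bad [Nonempty ι] (hp2 : p ≠ 2) (hex : Hex T K p) :
    ∃ y : SU ι E, BadU E p y ∧ (∀ k ∈ K, T.ρ k (mt y) = mt y) ∧ y ^ p = 1 ∧ y ≠ 1 := by
  obtain ⟨y, hyp, hy1, hys, hyK, -⟩ := exists_unip h T hS hK hp hex
  rcases Cfsg.Agent.H901.CA.uni_st h p hp hp2 inferInstance ι y hyp hy1 with ⟨g, a, ha, hg⟩ | hb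
  · exfalso
    refine ha (T.not_conj_pow hS hK (x := y) (fun k hk => by rw [hyK k hk]; exact Sc.refl _) hp ?_ hys (g := g) ?_)
    · rw [← map_pow, hyp, map_one]; exact Sc.refl _
    · rw [hg, map_pow]; exact Sc.refl _
  · exact ⟨y, hb, hyK, hyp, hy1⟩

/-- if `K` has elements of order `3 = p` and `2` modulo scalars, then it fixes a proper idempotent -/
theorem propFix_of_bad [Nonempty ι] (hp2 : p ≠ 2) (hex : Hex T K p) (hex2 : Hex T K 2) : PropFix T K := by
  have hD := Cfsg.Agent.H35.CA.det_st h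
  obtain ⟨y, hb, hyK, -, -⟩ := exists_bad h T hS hK hp hp2 hex
  have hp3 : p = 3 := hb.1
  subst hp3
  obtain ⟨x, hxK, hx1, hx2, hxK'⟩ := T.central_mod hD hS hK hex2
  obtain ⟨l, hl, hxl⟩ := id hx2
  have hxy : x * y = y * x := by
    have h1 := hyK _ hxK
    rw [T.ρ_j] at h1
    apply mt_injective
    rw [map_mul, map_mul]
    calc mt x * mt y = mt x * mt y * (star (mt x) * mt x) := by rw [star_mt_mul, mul_one]
      _ = (mt x * mt y * star (mt x)) * mt x := by rw [mul_assoc, mul_assoc, mul_assoc]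
      _ = mt y * mt x := by rw [h1]
  obtain ⟨m, hm, hml, hrk⟩ := Cfsg.Agent.H481.CA.inv_st h ι y hb inferInstance x l hxl hxy
  have hmm : star (star m) * star m = 1 := by rw [star_star, mul_comm, hm]
  set w : Matrix ι ι E := star m • mt x with hw
  have hww : star w * w = 1 := by
    rw [hw, star_smul, smul_mul_smul_comm, star_mt_mul, hmm, one_smul]
  have hw2 : w ^ 2 = 1 := by
    rw [hw, smul_pow, hxl, smul_smul, ← star_pow, hml, hl, one_smul]
  have hws : star w = w := by
    calc star w = star w * (w ^ 2) := by rw [hw2, mul_one]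
      _ = (star w * w) * w := by rw [sq, mul_assoc]
      _ = w := by rw [hww, one_mul]
  have h3 : (3 : E) = 0 := by exact_mod_cast CharP.cast_eq_zero E 3
  have h4 : (2 : E) * 2 = 1 := by linear_combination h3
  have h5 : (2 : E) + 2 = 1 := by linear_combination h3
  have h2s : star (2 : E) = 2 := by
    have : star ((2 : ℕ) : E) = ((2 : ℕ) : E) := star_natCast 2
    exact_mod_cast this
  have hwsq : w * w = 1 := by rw [← sq, hw2]
  have hSc : Sc (mt x) w := Sc.symm ⟨star m, hmm, rfl⟩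
  have hw1 : ¬ Sc w 1 := fun hc => hx1 (hSc.trans hc)
  have hP : IsP ((2 : E) • (1 + w)) := by
    constructor
    · rw [smul_mul_smul_comm, h4, one_smul]
      have e1 : (1 + w) * (1 + w) = (1 + w) + (1 + w) := by
        rw [add_mul, mul_add, mul_add, one_mul, mul_one, hwsq, one_mul]; abel
      rw [e1, ← two_smul E (1 + w)]
    · rw [star_smul, h2s, star_add, star_one, hws]
  have hfix : ∀ k ∈ K, T.ρ k w = w := by
    intro k hk
    obtain ⟨c, hc, hck⟩ := ((T.ρ_sc k hSc.symm).trans (hxK' k hk)).trans hSc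
    have h1 := congrArg (fun z => z ^ 2) hck
    rw [← map_pow, hw2, map_one, smul_pow, hw2] at h1
    obtain ⟨i⟩ := (inferInstance : Nonempty ι)
    have h6 := congrFun (congrFun h1 i) i
    rw [Matrix.smul_apply, Matrix.one_apply_eq, smul_eq_mul, mul_one] at h6
    rcases sq_eq_one h hc h6.symm with h7 | h7
    · rw [hck, h7, one_smul]
    · exfalso
      apply hrk
      have h8 : T.ρ k ((2 : E) • (1 + w)) = (2 : E) • (1 - w) := by
        have e1 : ∀ a : Matrix ι ι E, (2 : E) • a = a + a := fun a => two_smul E a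
        rw [e1, e1, map_add, map_add, map_one, hck, h7, neg_smul, one_smul, sub_eq_add_neg]
      rw [← h8, Cfsg.Agent.H957.CarLab.rk_map]
  refine ⟨(2 : E) • (1 + w), hP, ?_, ?_, ?_⟩
  · intro hc
    apply hw1
    have h6 : (2 : E) • ((2 : E) • (1 + w)) = 0 := by rw [hc, smul_zero]
    rw [smul_smul, h4, one_smul] at h6
    have h7 : w = (-1 : E) • (1 : Matrix ι ι E) := by
      rw [neg_smul, one_smul]
      exact eq_neg_of_add_eq_zero_right h6
    exact ⟨-1, by rw [star_neg, star_one, neg_mul_neg, one_mul], h7⟩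
  · intro hc
    apply hw1
    have h6 : (2 : E) • ((2 : E) • (1 + w)) = (2 : E) • (1 : Matrix ι ι E) := by rw [hc]
    rw [smul_smul, h4, one_smul, two_smul] at h6
    have h7 : w = (1 : Matrix ι ι E) := add_left_cancel h6
    rw [h7]
    exact Sc.refl _
  · intro k hk
    have e1 : ∀ a : Matrix ι ι E, (2 : E) • a = a + a := fun a => two_smul E a
    rw [e1, map_add, map_add, map_one, hfix k hk]

end

/-- **Claim 1.** -/
theorem claim1 (hF : Fpf.{u}) {p : ℕ} (hp : p.Prime) (hp2 : p ≠ 2) (n : ℕ) :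
    ∀ (Γ : Type u) [Group Γ] [Finite Γ] (ι : Type) [Fintype ι] [DecidableEq ι] (E : Type) [CommRing E] [StarRing E]
      (h : Gd E) [CharP E p] (T : TA Γ ι E) (hS : Sml Γ) (K : Subgroup Γ) (hK : IsCarter K),
      Fintype.card ι = n → (¬ ∃ a : ℕ, n = 2 ^ a) → n ≠ 0 → PropFix T K := by
  induction n using Nat.strong_induction_on with
  | _ n IH =>
  intro Γ _ _ ι _ _ E _ _ h _ T hS K hK hn hnp hn0
  have : Nonempty ι := Fintype.card_pos_iff.1 (by omega)
  have hpf : Fact p.Prime := ⟨hp⟩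
  have hD := Cfsg.Agent.H35.CA.det_st h
  have hfam := fam_st h
  by_cases hA : ∃ r : ℕ, r.Prime ∧ r ≠ 2 ∧ r ≠ p ∧ Hex T K r
  · obtain ⟨r, hr, hr2, hrp, hex⟩ := hA
    rcases step h hD (Cfsg.Agent.H908.CarterPC.pc_st h) (Cfsg.Agent.H957.CarLab.lab_st h hfam) (ex_st h) hS hK
      hr hr2 (isUnit_of_ne h hp hr hrp) hex with hP | ⟨m, E', i, s, hG, hc, hrm, hch, R, hR⟩
    · exact hP
    · let _ := i
      let _ := s
      have : CharP E' p := hch p inferInstance
      have hm0 : m ≠ 0 := by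
        rintro rfl
        rw [mul_zero] at hc
        omega
      have hmn : m < n := by
        rw [← hn, hc]
        have := hr.one_lt
        nlinarith [Nat.pos_of_ne_zero hm0]
      exact R.propFix hR (IH m hmn R.M (Fin m) E' hG R.T' (hS.subgroup R.M) (K.subgroupOf R.M) (R.carter hK)
        (Fintype.card_fin m) (not_two_pow_of_dvd hr hr2 hrm) hm0)
  push Not at hA
  by_cases hB : Hex T K p
  · by_cases h2 : Hex T K 2
    · exact propFix_of_bad h T hS hK hp hp2 hB h2
    · exfalso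
      obtain ⟨y, hb, -⟩ := exists_bad h T hS hK hp hp2 hB
      obtain ⟨P, hPr, hPp, hPi, hPK⟩ := T.lemma_x_ta hD hF hS hK (l := p) fun r hr hrp hex => by
        by_cases hr2 : r = 2
        · rw [hr2] at hex; exact h2 hex
        · exact hA r hr hr2 hrp hex
      have hn3 : 3 ≤ Fintype.card ι := by
        obtain ⟨-, -, k, hk, hk2, -⟩ := hb
        rw [hk2]
        obtain ⟨t, ht⟩ := hk
        rcases Nat.eq_zero_or_pos t with h0 | h0
        · exfalso
          apply hnp
          refine ⟨1, ?_⟩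
          rw [← hn, hk2, ht, h0]
          norm_num
        · omega
      exact h2 (Cfsg.Agent.H689.CA.exists_two_of_sylow_p h T hD (Cfsg.Agent.H689.CA.bor_st h) hS hK hp2 hn3 hPr hPp hPi hPK)
  · have : Fact (Nat.Prime 2) := ⟨Nat.prime_two⟩
    obtain ⟨P, hPr, hPp, hPi, hPK⟩ := T.lemma_x_ta hD hF hS hK (l := 2) fun r hr hr2 hex => by
      by_cases hrp : r = p
      · rw [hrp] at hex; exact hB hex
      · exact hA r hr hr2 hrp hex
    obtain ⟨e, he, h0, h1, hf⟩ := Cfsg.Agent.H911.CA.exists_fix_of_sylow2 h T hD (by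
      have := isUnit_of_ne (E := E) h hp Nat.prime_two hp2.symm
      exact_mod_cast this) (two_st h) (by rw [hn]; exact hnp) inferInstance hPr hPp hPi
    exact ⟨e, he, h0, h1, fun k hk => hf k (hPK hk)⟩

end Cfsg.Agent.H308.CA
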