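import Cfsg.Agent.H308.CA.Main1

/-!
# No elements of order `p` modulo scalars, `n ≥ 3`
-/

set_option autoImplicit false
set_option linter.unusedSectionVars false
set_option linter.unusedVariables false

namespace Cfsg.Agent.H308.CA

open Subgroup Pointwise Matrix
open Cfsg.Agent.Solvable.Carter Cfsg.Agent.H18.Carter Cfsg.Agent.H381.Car

universe u

/-- the corner embedding, with determinants -/
theorem cor_data {ι : Type} [Fintype ι] [DecidableEq ι] {E : Type} [CommRing E] [StarRing E] (h : Gd E)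
    {e : Matrix ι ι E} (he : IsP e) :
    ∃ (ι' : Type) (_ : Fintype ι') (_ : DecidableEq ι') (φ : Matrix ι' ι' E →ₙ+* Matrix ι ι E),
      Function.Injective φ ∧ (∀ a, φ (star a) = star (φ a)) ∧ φ 1 = e ∧ Fintype.card ι' = rk e ∧
      (∀ b, e * b * e = b → ∃ a, b = φ a) ∧ (∀ a, (φ a + (1 - φ 1)).det = a.det) ∧ ∀ a, rk (φ a) = rk a := by
  classical
  have he1 : IsP (1 - e) := Cfsg.Agent.H55.CA.isP_one_sub he
  have he2 : e * (1 - e) = 0 := by rw [mul_sub, mul_one, he.idem, sub_self]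
  have he3 : (1 - e) * e = 0 := by rw [sub_mul, one_mul, he.idem, sub_self]
  obtain ⟨u, c, hc⟩ := Cfsg.Agent.H248.CA.onSt h ι Bool (fun b => if b then e else 1 - e) (by
    intro b
    cases b
    · exact he1
    · exact he) (by
    intro b b' hb
    cases b <;> cases b'
    · exact absurd rfl hb
    · exact he3
    · exact he2
    · exact absurd rfl hb) (by
    rw [Fintype.sum_bool]
    change e + (1 - e) = 1
    rw [add_sub_cancel])
  have hc1 := (hc true).symm
  rw [if_pos rfl] at hc1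
  set p : ι → Prop := fun x => c x = true with hp
  have h1 : Cfsg.Agent.H35.CA.cor (p := p) u 1 = e := by rw [Cfsg.Agent.H35.CA.cor_one]; exact hc1
  refine ⟨{x // p x}, inferInstance, inferInstance, Cfsg.Agent.H35.CA.cor (p := p) u,
    Cfsg.Agent.H35.CA.cor_injective u, Cfsg.Agent.H35.CA.cor_star u, h1, ?_, ?_, ?_, fun a =>
    Cfsg.Agent.H35.CA.cor_rk u a⟩
  · rw [← h1, Cfsg.Agent.H35.CA.cor_rk, Cfsg.Agent.H35.CA.rk_one h]
  · intro b hb
    apply Cfsg.Agent.H35.CA.cor_range
    have h2 : star (mt u) * dg p * mt u = e := hc1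
    rw [h2]; exact hb
  · intro a
    have e1 : Cfsg.Agent.H35.CA.cor (p := p) u a + (1 - Cfsg.Agent.H35.CA.cor (p := p) u 1) =
        star (mt u) * (Cfsg.Agent.H35.CA.blk p a + (1 - Cfsg.Agent.H35.CA.blk p 1)) * mt u := by
      rw [Cfsg.Agent.H35.CA.cor_apply, Cfsg.Agent.H35.CA.cor_apply, mul_add, mul_sub, add_mul, sub_mul, mul_one,
        star_mt_mul]
    have e2 : (star (mt u)).det = 1 := by rw [← mt_inv, mt_det]
    rw [e1, det_mul, det_mul, e2, mt_det, Cfsg.Agent.H35.CA.blk_det, one_mul, mul_one]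

/-- unitary matrices of given determinant -/
theorem exists_det {ι : Type} [Fintype ι] [DecidableEq ι] [Nonempty ι] {E : Type} [CommRing E] [StarRing E] {d : E}
    (hd : star d * d = 1) : ∃ a : Matrix ι ι E, star a * a = 1 ∧ a.det = d := by
  obtain ⟨x0⟩ := (inferInstance : Nonempty ι)
  set a : ι → E := Function.update (fun _ => 1) x0 d with ha
  have haa : ∀ x, star (a x) * a x = 1 := by
    intro x
    by_cases hx : x = x0
    · rw [ha, hx, Function.update_self, hd]
    · rw [ha, Function.update_of_ne hx, star_one, one_mul]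
  refine ⟨Matrix.diagonal a, ?_, ?_⟩
  · rw [Matrix.star_eq_conjTranspose, Matrix.diagonal_conjTranspose, Matrix.diagonal_mul_diagonal, ← Matrix.diagonal_one]
    congr 1
    funext x
    exact haa x
  · rw [Matrix.det_diagonal, ha, Finset.prod_update_of_mem (Finset.mem_univ _), Finset.prod_const_one, mul_one]

section

variable {ι : Type} [Fintype ι] [DecidableEq ι] {E : Type} [CommRing E] [StarRing E]
  {ι' : Type} [Fintype ι'] [DecidableEq ι']

theorem phi_unit {e : Matrix ι ι E} {φ : Matrix ι' ι' E →ₙ+* Matrix ι ι E} (hst : ∀ a, φ (star a) = star (φ a))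
    (h1 : φ 1 = e) {a : Matrix ι' ι' E} (ha : star a * a = 1) :
    star (φ a + (1 - e)) * (φ a + (1 - e)) = 1 := by
  subst h1
  have hs : star (φ 1) = φ 1 := by rw [← hst, star_one]
  have e1 : φ (star a) * φ a = φ 1 := by rw [← map_mul, ha]
  have e2 : φ (star a) * (1 - φ 1) = 0 := by rw [mul_sub, mul_one, ← map_mul, mul_one, sub_self]
  have e3 : (1 - φ 1) * φ a = 0 := by rw [sub_mul, one_mul, ← map_mul, one_mul, sub_self]
  have e4 : (1 - φ 1) * (1 - φ 1) = 1 - φ 1 := by
    rw [mul_sub, mul_one, sub_mul, one_mul, ← map_mul, one_mul, sub_self, sub_zero]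
  rw [star_add, star_sub, star_one, hs, ← hst, add_mul, mul_add, mul_add, e1, e2, e3, e4]
  abel

end

/-- a full unitary element of a proper corner extends to `SU` -/
theorem extend {ι : Type} [Fintype ι] [DecidableEq ι] {E : Type} [CommRing E] [StarRing E] (h : Gd E)
    {e : Matrix ι ι E} (he : IsP e) (hne : e ≠ 1) {ι' : Type} [Fintype ι'] [DecidableEq ι']
    {φ : Matrix ι' ι' E →ₙ+* Matrix ι ι E} (hst : ∀ a, φ (star a) = star (φ a)) (h1 : φ 1 = e)
    (hdet : ∀ a, (φ a + (1 - φ 1)).det = a.det) {a : Matrix ι' ι' E} (ha : star a * a = 1) :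
    ∃ g : SU ι E, mt g * e = φ a ∧ e * mt g = φ a := by
  obtain ⟨κ, i1, i2, ψ, hψi, hψs, hψ1, hψc, -, hψd, -⟩ := cor_data h (Cfsg.Agent.H55.CA.isP_one_sub he)
  have hκ : Nonempty κ := by
    rw [← Fintype.card_pos_iff, hψc, Nat.pos_iff_ne_zero]
    intro h0
    rw [Cfsg.Agent.H55.CA.rk_eq_zero h (Cfsg.Agent.H55.CA.isP_one_sub he)] at h0
    exact hne (sub_eq_zero.1 h0).symm
  have hdu : star a.det * a.det = 1 := by
    rw [← Matrix.det_conjTranspose, ← Matrix.star_eq_conjTranspose, ← Matrix.det_mul, ha, Matrix.det_one]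
  obtain ⟨b, hb, hbd⟩ := exists_det (ι := κ) (E := E) (d := star a.det) (by rw [star_star, mul_comm, hdu])
  have e1 : φ a * e = φ a := by rw [← h1, ← map_mul, mul_one]
  have e2 : e * φ a = φ a := by rw [← h1, ← map_mul, one_mul]
  have e3 : ψ b * e = 0 := by
    have h2 : ψ b * (1 - e) = ψ b := by rw [← hψ1, ← map_mul, mul_one]
    rw [mul_sub, mul_one] at h2
    exact sub_eq_self.1 h2
  have e4 : e * ψ b = 0 := by
    have h2 : (1 - e) * ψ b = ψ b := by rw [← hψ1, ← map_mul, one_mul]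
    rw [sub_mul, one_mul] at h2
    exact sub_eq_self.1 h2
  have hu1 := phi_unit hst h1 ha
  have hu2 := phi_unit hψs hψ1 hb
  rw [sub_sub_cancel] at hu2
  set A := φ a + (1 - e) with hA
  set B := ψ b + e with hB
  have hAd : A.det = a.det := by rw [hA, ← h1]; exact hdet a
  have hBd : B.det = star a.det := by
    have := hψd b
    rw [hψ1, sub_sub_cancel, hbd] at this
    exact this
  refine ⟨mkSU (A * B) ?_ ?_, ?_, ?_⟩
  · rw [star_mul, mul_assoc, ← mul_assoc (star A), hu1, one_mul, hu2]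
  · rw [Matrix.det_mul, hAd, hBd, mul_comm, hdu]
  · have f1 : B * e = e := by rw [hB, add_mul, e3, he.idem, zero_add]
    have f2 : A * e = φ a := by rw [hA, add_mul, sub_mul, one_mul, he.idem, sub_self, add_zero, e1]
    rw [mt_mkSU, mul_assoc, f1, f2]
  · have f1 : e * A = φ a := by rw [hA, mul_add, mul_sub, mul_one, he.idem, sub_self, add_zero, e2]
    have f2 : φ a * B = φ a := by
      calc φ a * B = φ a * e * B := by rw [e1]
        _ = φ a * (e * B) := mul_assoc _ _ _
        _ = φ a := by rw [hB, mul_add, e4, he.idem, zero_add, e1]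
    rw [mt_mkSU, ← mul_assoc, f1, f2]

section

variable {Γ : Type u} [Group Γ] [Finite Γ] {ι : Type} [Fintype ι] [DecidableEq ι] {E : Type} [CommRing E] [StarRing E]
  (h : Gd E) (T : TA Γ ι E) (hS : Sml Γ) {K : Subgroup Γ} (hK : IsCarter K) {p : ℕ} (hp : p.Prime) [CharP E p]
include h hS hK hp

/-- a unipotent matrix fixed by `K` is trivial on proper `K`-fixed corners -/
theorem unip_corner (hp2 : p ≠ 2) {Y e : Matrix ι ι E} (hYs : star Y * Y = 1) (hYp : Y ^ p = 1)
    (hYK : ∀ k ∈ K, T.ρ k Y = Y) (he : IsP e) (he1 : e ≠ 1) (heK : ∀ k ∈ K, T.ρ k e = e) (hYe : Y * e = e * Y) :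
    e * Y = e := by
  by_contra hne
  obtain ⟨ι', i1, i2, φ, hi, hst, h1, hc, hr, hd, -⟩ := cor_data h he
  have e0 : e * (e * Y) * e = e * Y := by
    rw [← mul_assoc, he.idem, mul_assoc, hYe, ← mul_assoc, he.idem]
  obtain ⟨a, ha⟩ := hr _ e0
  have haK : ∀ k ∈ K, T.ρ k (φ a) = φ a := fun k hk => by rw [← ha, map_mul, heK k hk, hYK k hk]
  have hφn : ∀ n : ℕ, φ (a ^ n) = e * Y ^ n := by
    intro n
    induction n with
    | zero => rw [pow_zero, pow_zero, mul_one, h1]
    | succ n ih =>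
      rw [pow_succ, map_mul, ih, ← ha, pow_succ]
      have hc : Y ^ n * e = e * Y ^ n := by
        clear ih
        induction n with
        | zero => rw [pow_zero, one_mul, mul_one]
        | succ n ih => rw [pow_succ, mul_assoc, hYe, ← mul_assoc, ih, mul_assoc]
      rw [mul_assoc, ← mul_assoc (Y ^ n), hc, mul_assoc e (Y ^ n) Y, ← mul_assoc e e, he.idem]
  have has : star a * a = 1 := by
    apply hi
    rw [map_mul, hst, ← ha, star_mul, he.sym, h1]
    calc star Y * e * (e * Y) = star Y * (e * e * Y) := by simp only [mul_assoc]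
      _ = star Y * (Y * e) := by rw [he.idem, hYe]
      _ = e := by rw [← mul_assoc, hYs, one_mul]
  have hap : a ^ p = 1 := by
    apply hi
    rw [hφn, hYp, mul_one, h1]
  have ha1 : a ≠ 1 := by
    rintro rfl
    rw [h1] at ha
    exact hne ha
  obtain ⟨g, b, hg, hb, hgb⟩ := Cfsg.Agent.H901.CA.uni_full h hp hp2 inferInstance a has hap ha1
  obtain ⟨γ, hγ1, hγ2⟩ := extend h he he1 hst h1 hd hg
  -- conjugation with `j γ`
  have hfix : ∀ n : ℕ, ∀ k ∈ K, T.ρ k (φ (a ^ n)) = φ (a ^ n) := by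
    intro n k hk
    rw [hφn, map_mul, map_pow, heK k hk, hYK k hk]
  have hconj : T.ρ (T.j γ) (φ a) = φ (a ^ b) := by
    rw [T.ρ_j]
    have e1 : φ a = e * φ a * e := by rw [← h1, ← map_mul, ← map_mul, one_mul, mul_one]
    have e2 : e * star (mt γ) = φ (star g) := by rw [hst, ← hγ1, star_mul, he.sym]
    rw [e1]
    calc mt γ * (e * φ a * e) * star (mt γ) = (mt γ * e) * φ a * (e * star (mt γ)) := by simp only [mul_assoc]
      _ = φ (a ^ b) := by rw [hγ1, e2, ← map_mul, ← map_mul, hgb]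
  have hmem : (T.j γ)⁻¹ ∈ T.fixer (φ a) := by
    refine mem_of_conj_le hS hK (fun k hk => haK k hk) ?_
    intro y hy
    rw [mem_cj, inv_inv] at hy
    set k := T.j γ * y * (T.j γ)⁻¹ with hkdef
    have hy' : y = (T.j γ)⁻¹ * (k * T.j γ) := by rw [hkdef]; group
    rw [TA.mem_fixer, hy', T.ρ_mul, T.ρ_mul, hconj, hfix b k hy, ← hconj, T.ρ_inv]
  have h2 := inv_mem hmem
  rw [inv_inv, TA.mem_fixer, hconj] at h2
  have h3 := hi h2
  -- `a ^ b = a`, `a ^ p = 1`
  have hau : IsUnit a := IsUnit.of_mul_eq_one (star a) (mul_eq_one_comm.1 has)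
  obtain ⟨u, hu⟩ := hau
  apply ha1
  have h4 : u ^ b = u := Units.ext (by rw [Units.val_pow_eq_pow_val, hu]; exact h3)
  have h5 : u ^ p = 1 := Units.ext (by rw [Units.val_pow_eq_pow_val, hu]; exact hap)
  have h6 : u ∈ (⊥ : Subgroup (Matrix ι' ι' E)ˣ) :=
    mem_of_pow_mem hp (by rw [h5]; exact one_mem _) (by rw [h4, mul_inv_cancel]; exact one_mem _) hb
  rw [Subgroup.mem_bot] at h6
  rw [← hu, h6, Units.val_one]

/-- **Claim P** -/
theorem claimP (hF : Fpf.{u}) (hp2 : p ≠ 2) (hn : 3 ≤ Fintype.card ι) : ¬ Hex T K p := by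
  intro hex
  have : Nonempty ι := Fintype.card_pos_iff.1 (by omega)
  obtain ⟨y, hyp, hy1, hys, hyK, x, hxK, hxy⟩ := exists_unip h T hS hK hp hex
  have hpf : PropFix T K := by
    rcases Cfsg.Agent.H901.CA.uni_st h p hp hp2 inferInstance ι y hyp hy1 with ⟨g, a, ha, hg⟩ | hb
    · exfalso
      refine ha (T.not_conj_pow hS hK (x := y) (fun k hk => by rw [hyK k hk]; exact Sc.refl _) hp ?_ hys (g := g) ?_)
      · rw [← map_pow, hyp, map_one]; exact Sc.refl _
      · rw [hg, map_pow]; exact Sc.refl _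
    · obtain ⟨-, -, k, hk, hk2, -⟩ := hb
      refine claim1 hF hp hp2 (Fintype.card ι) Γ ι E h T hS K hK rfl ?_ (by omega)
      rintro ⟨a, ha⟩
      rw [hk2] at ha hn
      rcases a with _ | a
      · omega
      · have h1 : k = 2 ^ a := by rw [pow_succ] at ha; omega
        rw [h1] at hk
        rcases a with _ | a
        · omega
        · rw [pow_succ] at hk
          exact (Nat.not_even_iff_odd.2 hk) (even_two.mul_left _)
  obtain ⟨e, he, h0, h1, hf⟩ := hpf
  have hYe : mt y * e = e * mt y := by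
    obtain ⟨c, hc, hcx⟩ := hxy.symm
    have h2 := hf _ hxK
    rw [T.ρ_j] at h2
    have h3 : mt x * e = e * mt x := by
      calc mt x * e = mt x * e * (star (mt x) * mt x) := by rw [star_mt_mul, mul_one]
        _ = (mt x * e * star (mt x)) * mt x := by rw [mul_assoc, mul_assoc, mul_assoc]
        _ = e * mt x := by rw [h2]
    rw [hcx, smul_mul_assoc, mul_smul_comm, h3]
  have hYp : mt y ^ p = 1 := by rw [← map_pow, hyp, map_one]
  have h2 := unip_corner h T hS hK hp hp2 (star_mt_mul y) hYp hyK he h1 hf hYe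
  have h3 := unip_corner h T hS hK hp hp2 (star_mt_mul y) hYp hyK (Cfsg.Agent.H55.CA.isP_one_sub he)
    (fun hc => h0 (by rw [sub_eq_self] at hc; exact hc)) (fun k hk => by rw [map_sub, map_one, hf k hk])
    (by rw [mul_sub, sub_mul, mul_one, one_mul, hYe])
  apply hy1
  apply mt_injective
  rw [map_one]
  calc mt y = e * mt y + (1 - e) * mt y := by rw [← add_mul, add_sub_cancel, one_mul]
    _ = 1 := by rw [h2, h3, add_sub_cancel]

omit [CharP E p] in
/-- odd primes not dividing the order of `unitary E` -/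
theorem not_hex_of_not_dvd {r : ℕ} (hr : r.Prime) (hr2 : r ≠ 2) (hru : IsUnit (r : E))
    (hrd : ¬ r ∣ Nat.card (unitary E)) : ¬ Hex T K r := by
  intro hex
  have : Fact r.Prime := ⟨hr⟩
  obtain ⟨x, hxK, hx1, hxr, hxK'⟩ := T.central_mod (Cfsg.Agent.H35.CA.det_st h) hS hK hex
  obtain ⟨g, a, ha, hg⟩ := Cfsg.Agent.H908.CarterPC.pc_st h ι r hr hr2 hru hrd x hxr hx1
  exact absurd (T.not_conj_pow hS hK hxK' hr hxr hx1 hg) ha

end

end Cfsg.Agent.H308.CA
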