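import Cfsg.Agent.H308.CA.Main2

/-!
# Claim 2: a complete orthogonal system of ranks distinct powers of `2`, fixed by `K`
-/

set_option autoImplicit false
set_option linter.unusedSectionVars false
set_option linter.unusedVariables false

namespace Cfsg.Agent.H308.CA

open Subgroup Pointwise Matrix
open Cfsg.Agent.Solvable.Carter Cfsg.Agent.H18.Carter Cfsg.Agent.H381.Car

universe u

/-- orthogonal systems of ranks distinct powers of `2` with sum `f`, fixed by `K` -/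
structure Sys {Γ : Type u} [Group Γ] {ι : Type} [Fintype ι] [DecidableEq ι] {E : Type} [CommRing E] [StarRing E]
    (T : TA Γ ι E) (K : Subgroup Γ) (f : Matrix ι ι E) (s : Finset ℕ) (e : ℕ → Matrix ι ι E) : Prop where
  isP : ∀ a ∈ s, IsP (e a)
  orth : ∀ a ∈ s, ∀ b ∈ s, a ≠ b → e a * e b = 0
  sum : ∑ a ∈ s, e a = f
  rk : ∀ a ∈ s, rk (e a) = 2 ^ a
  fix : ∀ a ∈ s, ∀ k ∈ K, T.ρ k (e a) = e a

section

variable {Γ : Type u} [Group Γ] {ι : Type} [Fintype ι] [DecidableEq ι] {E : Type} [CommRing E] [StarRing E]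
  {T : TA Γ ι E} {K : Subgroup Γ} {ι' : Type} [Fintype ι'] [DecidableEq ι'] {E' : Type} [CommRing E'] [StarRing E']

theorem Sys.map (R : RedS T K ι' E') (hR : ∀ a, IsP a → CA.rk (R.φ a) = CA.rk a) {f : Matrix ι' ι' E'} {s : Finset ℕ}
    {e : ℕ → Matrix ι' ι' E'} (S : Sys R.T' (K.subgroupOf R.M) f s e) : Sys T K (R.φ f) s (fun a => R.φ (e a)) where
  isP a ha := R.isP (S.isP a ha)
  orth a ha b hb hab := by rw [← map_mul, S.orth a ha b hb hab, map_zero]
  sum := by rw [← S.sum, map_sum]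
  rk a ha := by rw [hR _ (S.isP a ha), S.rk a ha]
  fix a ha := R.fix (fun m hm => S.fix a ha m hm)

theorem Sys.mul_left {f : Matrix ι ι E} {s : Finset ℕ} {e : ℕ → Matrix ι ι E} (S : Sys T K f s e) {a : ℕ}
    (ha : a ∈ s) : e a * f = e a := by
  rw [← S.sum, Finset.mul_sum, Finset.sum_eq_single_of_mem a ha fun b hb hab => S.orth a ha b hb hab.symm,
    (S.isP a ha).idem]

theorem Sys.mul_right {f : Matrix ι ι E} {s : Finset ℕ} {e : ℕ → Matrix ι ι E} (S : Sys T K f s e) {a : ℕ}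
    (ha : a ∈ s) : f * e a = e a := by
  rw [← S.sum, Finset.sum_mul, Finset.sum_eq_single_of_mem a ha fun b hb hab => S.orth b hb a ha hab,
    (S.isP a ha).idem]

variable [Finite Γ]

theorem Sys.glue (h : Gd E) (hS : Sml Γ) (hK : IsCarter K) {e0 : Matrix ι ι E} (he0 : IsP e0) {s1 s2 : Finset ℕ}
    {e1 e2 : ℕ → Matrix ι ι E} (S1 : Sys T K e0 s1 e1) (S2 : Sys T K (1 - e0) s2 e2) :
    Disjoint s1 s2 ∧ Sys T K 1 (s1 ∪ s2) (fun a => if a ∈ s1 then e1 a else e2 a) := by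
  have h0 : e0 * (1 - e0) = 0 := by rw [mul_sub, mul_one, he0.idem, sub_self]
  have h0' : (1 - e0) * e0 = 0 := by rw [sub_mul, one_mul, he0.idem, sub_self]
  have ho : ∀ a ∈ s1, ∀ b ∈ s2, e1 a * e2 b = 0 := by
    intro a ha b hb
    rw [← S1.mul_left ha, ← S2.mul_right hb, mul_assoc, ← mul_assoc e0, h0, zero_mul, mul_zero]
  have ho' : ∀ a ∈ s1, ∀ b ∈ s2, e2 b * e1 a = 0 := by
    intro a ha b hb
    rw [← S1.mul_right ha, ← S2.mul_left hb, mul_assoc, ← mul_assoc (1 - e0), h0', zero_mul, mul_zero]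
  have hd : Disjoint s1 s2 := by
    rw [Finset.disjoint_left]
    intro a h1 h2
    have h3 := T.rk_ne (Cfsg.Agent.H35.CA.det_st h) (fam_st h) hS hK (S1.isP a h1) (S2.isP a h2) (ho a h1 a h2)
      (S1.fix a h1) (S2.fix a h2) (by rw [S1.rk a h1, S2.rk a h2])
    have h4 : e1 a = 0 := by
      have := (S1.isP a h1).idem
      rw [← this]
      nth_rw 2 [h3]
      exact ho a h1 a h2
    have h5 := (Cfsg.Agent.H55.CA.rk_eq_zero h (S1.isP a h1)).2 h4
    rw [S1.rk a h1] at h5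
    exact (pow_ne_zero a two_ne_zero) h5
  have hn : ∀ a ∈ s2, a ∉ s1 := fun a h2 h1 => Finset.disjoint_left.1 hd h1 h2
  refine ⟨hd, ?_, ?_, ?_, ?_, ?_⟩
  · intro a ha
    by_cases h1 : a ∈ s1
    · rw [if_pos h1]; exact S1.isP a h1
    · rw [if_neg h1]; exact S2.isP a ((Finset.mem_union.1 ha).resolve_left h1)
  · intro a ha b hb hab
    by_cases h1 : a ∈ s1
    · rw [if_pos h1]
      by_cases h2 : b ∈ s1
      · rw [if_pos h2]; exact S1.orth a h1 b h2 hab
      · rw [if_neg h2]; exact ho a h1 b ((Finset.mem_union.1 hb).resolve_left h2)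
    · rw [if_neg h1]
      have h1' := (Finset.mem_union.1 ha).resolve_left h1
      by_cases h2 : b ∈ s1
      · rw [if_pos h2]; exact ho' b h2 a h1'
      · rw [if_neg h2]; exact S2.orth a h1' b ((Finset.mem_union.1 hb).resolve_left h2) hab
  · rw [Finset.sum_union hd, Finset.sum_congr rfl fun a ha => if_pos ha,
      Finset.sum_congr rfl fun a ha => if_neg (hn a ha), S1.sum, S2.sum, add_sub_cancel]
  · intro a ha
    by_cases h1 : a ∈ s1
    · rw [if_pos h1]; exact S1.rk a h1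
    · rw [if_neg h1]; exact S2.rk a ((Finset.mem_union.1 ha).resolve_left h1)
  · intro a ha
    by_cases h1 : a ∈ s1
    · rw [if_pos h1]; exact S1.fix a h1
    · rw [if_neg h1]; exact S2.fix a ((Finset.mem_union.1 ha).resolve_left h1)

end

theorem rk_lt {ι : Type} [Fintype ι] [DecidableEq ι] {E : Type} [CommRing E] [StarRing E] (h : Gd E)
    {e : Matrix ι ι E} (he : IsP e) (he1 : e ≠ 1) : rk e < Fintype.card ι := by
  have h1 := Cfsg.Agent.H55.CA.rk_sub h he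
  have h2 : rk (1 - e) ≠ 0 := fun h0 => he1 (by
    rw [Cfsg.Agent.H55.CA.rk_eq_zero h (Cfsg.Agent.H55.CA.isP_one_sub he), sub_eq_zero] at h0
    exact h0.symm)
  omega

theorem one_sub_ne {ι : Type} [Fintype ι] [DecidableEq ι] {E : Type} [CommRing E] {e : Matrix ι ι E} (he0 : e ≠ 0) :
    1 - e ≠ 1 := fun hc => he0 (by rw [sub_eq_self] at hc; exact hc)

/-- **Claim 2.** -/
theorem claim2 (hF : Fpf.{u}) {p : ℕ} (hp : p.Prime) (hp2 : p ≠ 2) (n : ℕ) :
    ∀ (Γ : Type u) [Group Γ] [Finite Γ] (ι : Type) [Fintype ι] [DecidableEq ι] (E : Type) [CommRing E] [StarRing E]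
      (h : Gd E) [CharP E p] (T : TA Γ ι E) (hS : Sml Γ) (K : Subgroup Γ) (hK : IsCarter K),
      Fintype.card ι = n → ∃ (s : Finset ℕ) (e : ℕ → Matrix ι ι E), Sys T K 1 s e := by
  induction n using Nat.strong_induction_on with
  | _ n IH =>
  intro Γ _ _ ι _ _ E _ _ h _ T hS K hK hn
  by_cases h0 : n = 0
  · have : IsEmpty ι := Fintype.card_eq_zero_iff.1 (by omega)
    exact ⟨∅, fun _ => 0, fun a ha => absurd ha (Finset.notMem_empty a), fun a ha => absurd ha (Finset.notMem_empty a),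
      Matrix.ext fun i => isEmptyElim i, fun a ha => absurd ha (Finset.notMem_empty a),
      fun a ha => absurd ha (Finset.notMem_empty a)⟩
  by_cases h2 : ∃ a : ℕ, n = 2 ^ a
  · obtain ⟨a, ha⟩ := h2
    refine ⟨{a}, fun _ => 1, fun b hb => ⟨one_mul 1, star_one _⟩, fun b hb c hc hbc => ?_, Finset.sum_singleton _ _, ?_,
      fun b hb k hk => map_one _⟩
    · rw [Finset.mem_singleton] at hb hc
      exact absurd (hb.trans hc.symm) hbc
    · intro b hb
      rw [Finset.mem_singleton] at hb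
      rw [Cfsg.Agent.H55.CA.rk_one h, hb, hn, ha]
  · obtain ⟨e, he, he0, he1, heK⟩ := claim1 hF hp hp2 n Γ ι E h T hS K hK hn h2 h0
    obtain ⟨ι1, i1, i2, R1, hR1, hc1, hr1⟩ := corner h T he heK
    obtain ⟨ι2, j1, j2, R2, hR2, hc2, hr2⟩ := corner h T (Cfsg.Agent.H55.CA.isP_one_sub he)
      (K := K) (fun k hk => by rw [map_sub, map_one, heK k hk])
    have hlt1 : Fintype.card ι1 < n := by rw [hc1, ← hn]; exact rk_lt h he he1
    have hlt2 : Fintype.card ι2 < n := by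
      rw [hc2, ← hn]; exact rk_lt h (Cfsg.Agent.H55.CA.isP_one_sub he) (one_sub_ne he0)
    obtain ⟨s1, e1, S1⟩ := IH _ hlt1 R1.M ι1 E h R1.T' (hS.subgroup R1.M) (K.subgroupOf R1.M) (R1.carter hK) rfl
    obtain ⟨s2, e2, S2⟩ := IH _ hlt2 R2.M ι2 E h R2.T' (hS.subgroup R2.M) (K.subgroupOf R2.M) (R2.carter hK) rfl
    have S1' := S1.map R1 hr1
    have S2' := S2.map R2 hr2
    rw [hR1] at S1'
    rw [hR2] at S2'
    exact ⟨_, _, (S1'.glue h hS hK he S2').2⟩

section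

variable {Γ : Type u} [Group Γ] [Finite Γ] {ι : Type} [Fintype ι] [DecidableEq ι] {E : Type} [CommRing E] [StarRing E]
  (h : Gd E) (T : TA Γ ι E) (hS : Sml Γ) {K : Subgroup Γ} (hK : IsCarter K) {p : ℕ} (hp : p.Prime) [CharP E p]
include h hS hK hp

/-- systems refining a given `K`-fixed idempotent -/
theorem exists_sys (hF : Fpf.{u}) (hp2 : p ≠ 2) {e : Matrix ι ι E} (he : IsP e) (heK : ∀ k ∈ K, T.ρ k e = e) :
    ∃ (s1 s2 : Finset ℕ) (f : ℕ → Matrix ι ι E), Disjoint s1 s2 ∧ Sys T K 1 (s1 ∪ s2) f ∧ ∑ a ∈ s1, f a = e := by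
  obtain ⟨ι1, i1, i2, R1, hR1, hc1, hr1⟩ := corner h T he heK
  obtain ⟨ι2, j1, j2, R2, hR2, hc2, hr2⟩ := corner h T (Cfsg.Agent.H55.CA.isP_one_sub he)
    (K := K) (fun k hk => by rw [map_sub, map_one, heK k hk])
  obtain ⟨s1, e1, S1⟩ := claim2 hF hp hp2 _ R1.M ι1 E h R1.T' (hS.subgroup R1.M) (K.subgroupOf R1.M) (R1.carter hK) rfl
  obtain ⟨s2, e2, S2⟩ := claim2 hF hp hp2 _ R2.M ι2 E h R2.T' (hS.subgroup R2.M) (K.subgroupOf R2.M) (R2.carter hK) rfl
  have S1' := S1.map R1 hr1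
  have S2' := S2.map R2 hr2
  rw [hR1] at S1'
  rw [hR2] at S2'
  obtain ⟨hd, hS'⟩ := S1'.glue h hS hK he S2'
  refine ⟨s1, s2, _, hd, hS', ?_⟩
  rw [Finset.sum_congr rfl fun a ha => if_pos ha]
  exact S1'.sum

/-- for `n = 2 ^ a` there is no proper fixed idempotent -/
theorem not_propFix (hF : Fpf.{u}) (hp2 : p ≠ 2) {a : ℕ} (hn : Fintype.card ι = 2 ^ a) : ¬ PropFix T K := by
  rintro ⟨e, he, he0, he1, heK⟩
  obtain ⟨s1, s2, f, hd, hsys, hs1⟩ := exists_sys h T hS hK hp hF hp2 he heK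
  have h1 := Cfsg.Agent.H55.CA.card_eq_sum h (s1 ∪ s2) f hsys.isP hsys.orth hsys.sum hsys.rk
  rw [hn] at h1
  have h2 : (fun s : Finset ℕ => ∑ i ∈ s, 2 ^ i) {a} = (fun s : Finset ℕ => ∑ i ∈ s, 2 ^ i) (s1 ∪ s2) := by
    simp only [Finset.sum_singleton]
    exact h1
  have h3 := Finset.geomSum_injective le_rfl h2
  by_cases ha : a ∈ s1
  · have h4 : s2 = ∅ := by
      rw [Finset.eq_empty_iff_forall_notMem]
      intro b hb
      have h5 : b ∈ ({a} : Finset ℕ) := by rw [h3]; exact Finset.mem_union_right _ hb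
      rw [Finset.mem_singleton] at h5
      subst h5
      exact Finset.disjoint_left.1 hd ha hb
    apply he1
    rw [← hs1, ← hsys.sum, h4, Finset.union_empty]
  · have h4 : s1 = ∅ := by
      rw [Finset.eq_empty_iff_forall_notMem]
      intro b hb
      have h5 : b ∈ ({a} : Finset ℕ) := by rw [h3]; exact Finset.mem_union_left _ hb
      rw [Finset.mem_singleton] at h5
      subst h5
      exact ha hb
    apply he0
    rw [← hs1, h4, Finset.sum_empty]

/-- for `n = 2 ^ a`, `K ∩ SU` is a `2`-group modulo scalars, if it has no elements of order `p` -/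
theorem not_hex_odd (hF : Fpf.{u}) (hp2 : p ≠ 2) {a : ℕ} (hn : Fintype.card ι = 2 ^ a) (hP : ¬ Hex T K p) {r : ℕ}
    (hr : r.Prime) (hr2 : r ≠ 2) : ¬ Hex T K r := by
  intro hex
  by_cases hrp : r = p
  · rw [hrp] at hex; exact hP hex
  rcases step h (Cfsg.Agent.H35.CA.det_st h) (Cfsg.Agent.H908.CarterPC.pc_st h)
    (Cfsg.Agent.H957.CarLab.lab_st h (fam_st h)) (ex_st h) hS hK
    hr hr2 (isUnit_of_ne h hp hr hrp) hex with hP | ⟨m, E', i, s, hG, hc, hrm, hch, R, hR⟩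
  · exact not_propFix h T hS hK hp hF hp2 hn hP
  · exact not_two_pow_of_dvd hr hr2 ⟨m, hc⟩ ⟨a, hn⟩

end

end Cfsg.Agent.H308.CA
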