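import Cfsg.Agent.H308.CA.Main3
import Cfsg.Agent.H248.CA.Gl

/-!
# A Carter subgroup normalises a Sylow `2`-subgroup of the special unitary group
-/

set_option autoImplicit false
set_option linter.unusedSectionVars false
set_option linter.unusedVariables false

namespace Cfsg.Agent.H308.CA

open Subgroup Pointwise Matrix
open Cfsg.Agent.Solvable.Carter Cfsg.Agent.H18.Carter Cfsg.Agent.H381.Car

universe u

section

variable {ι : Type} [Fintype ι] [DecidableEq ι] {E : Type} [CommRing E] [StarRing E]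

/-- the elements of `SU` which are the identity on `f` -/
def LS (f : Matrix ι ι E) : Subgroup (SU ι E) where
  carrier := {v | mt v * f = f}
  one_mem' := by
    change mt (1 : SU ι E) * f = f
    rw [map_one, one_mul]
  mul_mem' := by
    intro v w hv hw
    change mt (v * w) * f = f
    rw [map_mul, mul_assoc]
    change mt w * f = f at hw
    rw [hw]; exact hv
  inv_mem' := by
    intro v hv
    change mt v⁻¹ * f = f
    change mt v * f = f at hv
    rw [mt_inv]
    nth_rw 1 [← hv]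
    rw [← mul_assoc, star_mt_mul, one_mul]

theorem mem_LS {f : Matrix ι ι E} {v : SU ι E} : v ∈ LS f ↔ mt v * f = f := Iff.rfl

theorem LS_right {f : Matrix ι ι E} (hf : IsP f) {v : SU ι E} (hv : v ∈ LS f) : f * mt v = f := by
  have h1 := mem_LS.1 (inv_mem hv)
  rw [mt_inv] at h1
  have h2 := congrArg star h1
  rwa [star_mul, star_star, hf.sym] at h2

/-- the elements commuting with `e` -/
def CS (e : Matrix ι ι E) : Subgroup (SU ι E) where
  carrier := {v | mt v * e = e * mt v}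
  one_mem' := by
    change mt (1 : SU ι E) * e = e * mt (1 : SU ι E)
    rw [map_one, one_mul, mul_one]
  mul_mem' := by
    intro v w hv hw
    change mt v * e = e * mt v at hv
    change mt w * e = e * mt w at hw
    change mt (v * w) * e = e * mt (v * w)
    rw [map_mul, mul_assoc, hw, ← mul_assoc, hv, mul_assoc]
  inv_mem' := by
    intro v hv
    change mt v * e = e * mt v at hv
    change mt v⁻¹ * e = e * mt v⁻¹
    rw [mt_inv]
    calc star (mt v) * e = star (mt v) * (e * (mt v * star (mt v))) := by rw [mt_mul_star, mul_one]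
      _ = star (mt v) * (mt v * e) * star (mt v) := by rw [hv]; simp only [mul_assoc]
      _ = e * star (mt v) := by rw [← mul_assoc, star_mt_mul, one_mul]

theorem mem_CS {e : Matrix ι ι E} {v : SU ι E} : v ∈ CS e ↔ mt v * e = e * mt v := Iff.rfl

theorem LS_le_CS {e : Matrix ι ι E} (he : IsP e) : LS e ≤ CS e := by
  intro v hv
  rw [mem_CS, mem_LS.1 hv, LS_right he hv]

theorem CS_compl (e : Matrix ι ι E) : CS (1 - e) = CS e := by
  ext v
  rw [mem_CS, mem_CS, mul_sub, sub_mul, mul_one, one_mul]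
  constructor
  · intro h
    exact sub_right_injective h
  · intro h
    rw [h]

/-- `LS (1 - e)` and `LS e` commute -/
theorem LS_comm {e : Matrix ι ι E} (he : IsP e) {v w : SU ι E} (hv : v ∈ LS (1 - e)) (hw : w ∈ LS e) :
    v * w = w * v := by
  have he1 := Cfsg.Agent.H55.CA.isP_one_sub he
  have hv1 := mem_LS.1 hv
  have hv2 := LS_right he1 hv
  have hw1 := mem_LS.1 hw
  have hw2 := LS_right he hw
  have hv3 : mt v * e = e * mt v := mem_CS.1 (by rw [← CS_compl]; exact LS_le_CS he1 hv)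
  have hw3 : mt w * (1 - e) = (1 - e) * mt w := by rw [mul_sub, sub_mul, mul_one, one_mul, hw1, hw2]
  apply mt_injective
  rw [map_mul, map_mul]
  calc mt v * mt w = mt v * ((e + (1 - e)) * mt w) := by rw [add_sub_cancel, one_mul]
    _ = mt v * (e * mt w) + mt v * (1 - e) * mt w := by rw [add_mul, mul_add, mul_assoc (mt v) (1 - e)]
    _ = mt v * e + (1 - e) * mt w := by rw [hw2, hv1]
    _ = e * mt v + mt w * (1 - e) := by rw [hv3, hw3]
    _ = mt w * (e * mt v) + mt w * ((1 - e) * mt v) := by rw [hv2, ← mul_assoc, hw1]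
    _ = mt w * mt v := by rw [← mul_add, ← add_mul, add_sub_cancel, one_mul]

theorem CS_norm {e : Matrix ι ι E} {u v : SU ι E} (hu : u ∈ CS e) (hv : v ∈ LS e) : u * v * u⁻¹ ∈ LS e := by
  rw [mem_LS, map_mul, map_mul, mul_assoc, mem_CS.1 (inv_mem hu), ← mul_assoc, mul_assoc (mt u), mem_LS.1 hv,
    mem_CS.1 hu, mul_assoc, ← map_mul, mul_inv_cancel, map_one, mul_one]

/-- the determinant on the corner -/
theorem corner_unit {e : Matrix ι ι E} (he : IsP e) {u : SU ι E} (hu : u ∈ CS e) :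
    star (e * mt u + (1 - e)) * (e * mt u + (1 - e)) = 1 := by
  have h1 := mem_CS.1 hu
  have h2 := mem_CS.1 (inv_mem hu)
  rw [mt_inv] at h2
  have e1 : star (mt u) * e * (e * mt u) = e := by
    calc star (mt u) * e * (e * mt u) = star (mt u) * (e * e) * mt u := by simp only [mul_assoc]
      _ = e * (star (mt u) * mt u) := by rw [he.idem, h2, mul_assoc]
      _ = e := by rw [star_mt_mul, mul_one]
  have e2 : star (mt u) * e * (1 - e) = 0 := by rw [mul_assoc, mul_sub, mul_one, he.idem, sub_self, mul_zero]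
  have e3 : (1 - e) * (e * mt u) = 0 := by rw [← mul_assoc, sub_mul, one_mul, he.idem, sub_self, zero_mul]
  have e4 : (1 - e) * (1 - e) = 1 - e := (Cfsg.Agent.H55.CA.isP_one_sub he).idem
  rw [star_add, star_sub, star_one, star_mul, he.sym, add_mul, mul_add, mul_add, e1, e2, e3, e4]
  abel

theorem corner_mul {e : Matrix ι ι E} (he : IsP e) {u v : SU ι E} (hu : u ∈ CS e) :
    e * mt (u * v) + (1 - e) = (e * mt u + (1 - e)) * (e * mt v + (1 - e)) := by
  have h1 := mem_CS.1 hu
  have e1 : e * mt u * (e * mt v) = e * mt (u * v) := by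
    rw [map_mul, ← h1, mul_assoc, ← mul_assoc e e, he.idem, ← mul_assoc, h1, mul_assoc]
  have e2 : e * mt u * (1 - e) = 0 := by rw [← h1, mul_assoc, mul_sub, mul_one, he.idem, sub_self, mul_zero]
  have e3 : (1 - e) * (e * mt v) = 0 := by rw [← mul_assoc, sub_mul, one_mul, he.idem, sub_self, zero_mul]
  have e4 : (1 - e) * (1 - e) = 1 - e := (Cfsg.Agent.H55.CA.isP_one_sub he).idem
  rw [add_mul, mul_add, mul_add, e1, e2, e3, e4]
  abel

/-- the determinant on the corner, as a homomorphism -/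
def dcor {e : Matrix ι ι E} (he : IsP e) : CS e →* unitary E :=
  MonoidHom.mk' (fun u => ⟨(e * mt u.1 + (1 - e)).det, Unitary.mem_iff.2 (by
    have h1 : star (e * mt u.1 + (1 - e)).det * (e * mt u.1 + (1 - e)).det = 1 := by
      rw [← Matrix.det_conjTranspose, ← Matrix.star_eq_conjTranspose, ← Matrix.det_mul, corner_unit he u.2,
        Matrix.det_one]
    exact ⟨h1, by rw [mul_comm]; exact h1⟩)⟩) (fun u v => Subtype.ext (by
      change (e * mt (u.1 * v.1) + (1 - e)).det = (e * mt u.1 + (1 - e)).det * (e * mt v.1 + (1 - e)).det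
      rw [corner_mul he u.2, Matrix.det_mul]))

theorem dcor_ker {e : Matrix ι ι E} (he : IsP e) {u : CS e} (hu : dcor he u = 1) :
    ∃ v ∈ LS (1 - e), ∃ w ∈ LS e, (u : SU ι E) = v * w := by
  have h1 : (e * mt u.1 + (1 - e)).det = 1 := congrArg Subtype.val hu
  have hc := mem_CS.1 u.2
  have hv : mkSU (e * mt u.1 + (1 - e)) (corner_unit he u.2) h1 ∈ LS (1 - e) := by
    rw [mem_LS, mt_mkSU, add_mul, ← hc, mul_assoc, mul_sub, mul_one, he.idem, sub_self, mul_zero, zero_add]
    exact (Cfsg.Agent.H55.CA.isP_one_sub he).idem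
  refine ⟨_, hv, (mkSU (e * mt u.1 + (1 - e)) (corner_unit he u.2) h1)⁻¹ * u.1, ?_, by rw [mul_inv_cancel_left]⟩
  have h2 := mem_CS.1 (inv_mem u.2)
  rw [mt_inv] at h2
  rw [mem_LS, map_mul, mt_inv, mt_mkSU, star_add, star_sub, star_one, star_mul, he.sym, add_mul]
  have e1 : star (mt u.1) * e * mt u.1 = e := by rw [h2, mul_assoc, star_mt_mul, mul_one]
  have e2 : (1 - e) * mt u.1 * e = 0 := by
    rw [mul_assoc, hc, ← mul_assoc, sub_mul, one_mul, he.idem, sub_self, zero_mul]
  rw [add_mul, e1, e2, he.idem, add_zero]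

end

section

variable {Γ : Type u} [Group Γ] {ι : Type} [Fintype ι] [DecidableEq ι] {E : Type} [CommRing E] [StarRing E]

/-- invariant subgroups -/
theorem norm_map (T : TA Γ ι E) (hD : DetSt E) {K : Subgroup Γ} {X : Subgroup (SU ι E)}
    (hX : ∀ k ∈ K, ∀ v ∈ X, T.act hD k v ∈ X) : K ≤ normalizer ((X.map T.j : Subgroup Γ) : Set Γ) := by
  have key : ∀ k ∈ K, ∀ x ∈ X.map T.j, k * x * k⁻¹ ∈ X.map T.j := by
    rintro k hk _ ⟨v, hv, rfl⟩
    rw [T.conj_eq hD]
    exact ⟨_, hX k hk v hv, rfl⟩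
  intro k hk
  rw [mem_normalizer_iff]
  intro x
  refine ⟨key k hk x, fun h => ?_⟩
  have h1 := key k⁻¹ (inv_mem hk) _ h
  have e : k⁻¹ * (k * x * k⁻¹) * k⁻¹⁻¹ = x := by group
  rwa [e] at h1

theorem act_LS (T : TA Γ ι E) (hD : DetSt E) {k : Γ} {f : Matrix ι ι E} (hf : T.ρ k f = f) {v : SU ι E}
    (hv : v ∈ LS f) : T.act hD k v ∈ LS f := by
  rw [mem_LS, T.mt_act]
  nth_rw 1 [← hf]
  rw [← map_mul, mem_LS.1 hv, hf]

theorem act_CS (T : TA Γ ι E) (hD : DetSt E) {k : Γ} {f : Matrix ι ι E} (hf : T.ρ k f = f) {v : SU ι E}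
    (hv : v ∈ CS f) : T.act hD k v ∈ CS f := by
  rw [mem_CS, T.mt_act]
  nth_rw 1 [← hf]
  rw [← map_mul, mem_CS.1 hv, map_mul, hf]

/-- corners, with all their properties -/
theorem corner' (h : Gd E) (T : TA Γ ι E) {K : Subgroup Γ} {e : Matrix ι ι E} (he : IsP e)
    (hK : ∀ k ∈ K, T.ρ k e = e) :
    ∃ (ι' : Type) (_ : Fintype ι') (_ : DecidableEq ι') (R : RedS T K ι' E), R.φ 1 = e ∧ Fintype.card ι' = rk e ∧
      (∀ a, rk (R.φ a) = rk a) ∧ R.T'.j.range.map R.M.subtype = (LS (1 - e)).map T.j := by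
  obtain ⟨ι', i1, i2, φ, hi, hst, h1, hc, hr, hd, hrk⟩ := cor_data h he
  have hsu : ∀ u : SU ι' E, (φ (mt u) + (1 - φ 1)).det = 1 := fun u => by rw [hd, mt_det]
  obtain ⟨M, T', h4, h5, h6⟩ := Cfsg.Agent.H35.CA.exists_red T (K := K) φ hi hst hsu (by
    intro k hk a
    apply hr
    have e1 : e * φ a * e = φ a := by
      rw [← h1, ← map_mul, ← map_mul, one_mul, mul_one]
    calc e * T.ρ k (φ a) * e = T.ρ k e * T.ρ k (φ a) * T.ρ k e := by rw [hK k hk]
      _ = _ := by rw [← map_mul, ← map_mul, e1])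
  refine ⟨ι', i1, i2, ⟨φ, M, T', hi, hst, h4, h5, h6⟩, h1, hc, hrk, le_antisymm ?_ ?_⟩
  · rintro _ ⟨_, ⟨u, rfl⟩, rfl⟩
    obtain ⟨v, hv, hj⟩ := h6 u
    refine ⟨v, ?_, hj.symm⟩
    rw [SetLike.mem_coe, mem_LS, hv, h1]
    have e1 : φ (mt u) * e = φ (mt u) := by rw [← h1, ← map_mul, mul_one]
    rw [add_mul, mul_sub, mul_one, e1, sub_self, zero_add]
    exact (Cfsg.Agent.H55.CA.isP_one_sub he).idem
  · rintro _ ⟨v, hv, rfl⟩
    have hv1 := mem_LS.1 hv
    have hv2 := LS_right (Cfsg.Agent.H55.CA.isP_one_sub he) hv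
    have hv3 : mt v * e = e * mt v := mem_CS.1 (by
      rw [← CS_compl]; exact LS_le_CS (Cfsg.Agent.H55.CA.isP_one_sub he) hv)
    obtain ⟨a, ha⟩ := hr (e * mt v) (by rw [← mul_assoc, he.idem, mul_assoc, hv3, ← mul_assoc, he.idem])
    have hv4 : mt v = φ a + (1 - φ 1) := by
      rw [h1, ← ha]
      calc mt v = (e + (1 - e)) * mt v := by rw [add_sub_cancel, one_mul]
        _ = _ := by rw [add_mul, hv2]
    have hda : a.det = 1 := by rw [← hd, ← hv4, mt_det]
    have haa : star a * a = 1 := by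
      apply hi
      rw [map_mul, hst, ← ha, star_mul, he.sym, h1]
      calc star (mt v) * e * (e * mt v) = star (mt v) * (e * e * mt v) := by simp only [mul_assoc]
        _ = star (mt v) * (mt v * e) := by rw [he.idem, hv3]
        _ = e := by rw [← mul_assoc, star_mt_mul, one_mul]
    obtain ⟨w, hw, hj⟩ := h6 (mkSU a haa hda)
    have hwv : w = v := mt_injective (by rw [hw, mt_mkSU, hv4])
    rw [← hwv, ← hj]
    exact ⟨_, ⟨mkSU a haa hda, rfl⟩, rfl⟩

end

end Cfsg.Agent.H308.CA
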