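import Cfsg.Agent.H308.CA.Main4
import Cfsg.Agent.H248.CA.Prod

/-!
# A Carter subgroup normalises a Sylow `2`-subgroup of the special unitary group, II
-/

set_option autoImplicit false
set_option linter.unusedSectionVars false
set_option linter.unusedVariables false

namespace Cfsg.Agent.H308.CA

open Subgroup Pointwise Matrix
open Cfsg.Agent.Solvable.Carter Cfsg.Agent.H18.Carter Cfsg.Agent.H381.Car

universe u

/-- elements of order `p` modulo scalars in a reduction -/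
theorem hex_of_red {Γ : Type u} [Group Γ] {ι : Type} [Fintype ι] [DecidableEq ι] {E : Type} [CommRing E] [StarRing E]
    {T : TA Γ ι E} {K : Subgroup Γ} {ι' : Type} [Fintype ι'] [DecidableEq ι'] {E' : Type} [CommRing E'] [StarRing E']
    (h : Gd E') (R : RedS T K ι' E') {p : ℕ} (hp : p.Prime) [CharP E' p] (hex : Hex R.T' (K.subgroupOf R.M) p) :
    Hex T K p := by
  obtain ⟨m, hmK, ⟨u, rfl⟩, hmZ, hmp⟩ := hex
  have hu1 : ¬ Sc (mt u) 1 := fun hc => hmZ (R.T'.j_mem_Z.2 hc)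
  rw [← map_pow, R.T'.j_mem_Z, map_pow] at hmp
  have := h.finite
  obtain ⟨c, hc, hcu⟩ := hmp
  set N := Nat.card (unitary E') with hN
  have hco : Nat.Coprime N p :=
    (Nat.coprime_comm.1 ((Nat.Prime.coprime_iff_not_dvd hp).2 (not_dvd_unitary h hp)))
  obtain ⟨t, ht0, ht1⟩ := Nat.chineseRemainder hco 0 1
  have hNt : N ∣ t := (Nat.modEq_zero_iff_dvd).1 ht0
  have hct : c ^ t = 1 := by
    let C : unitary E' := ⟨c, Unitary.mem_iff.2 ⟨hc, by rw [mul_comm]; exact hc⟩⟩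
    have h1 : C ^ t = 1 := by
      obtain ⟨q, hq⟩ := hNt
      rw [hq, pow_mul, hN, pow_card_eq_one', one_pow]
    exact congrArg Subtype.val h1
  have hup : (u ^ t) ^ p = 1 := by
    apply mt_injective
    rw [← pow_mul, mul_comm, pow_mul, map_pow, map_pow, hcu, smul_pow, one_pow, hct, one_smul, map_one]
  have hut : ¬ Sc (mt (u ^ t)) 1 := by
    intro hs
    apply hu1
    have h1 : t ≠ 0 := by
      rintro rfl
      have := (Nat.modEq_iff_dvd' (Nat.zero_le 1)).1 ht1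
      exact hp.one_lt.ne' (Nat.dvd_one.1 this)
    obtain ⟨q, hq⟩ := (Nat.modEq_iff_dvd' (Nat.pos_of_ne_zero h1)).1 ht1.symm
    have hq' : t = 1 + p * q := by omega
    have h2 : u ^ t = u * (u ^ p) ^ q := by rw [hq', pow_add, pow_one, pow_mul]
    have h3 : (u ^ p) ^ q ∈ scal ι' E' := pow_mem (by rw [mem_scal, map_pow]; exact ⟨c, hc, hcu⟩) q
    have h4 : u ^ t ∈ scal ι' E' := hs
    rw [h2] at h4
    exact (Subgroup.mul_mem_cancel_right _ h3).1 h4
  obtain ⟨v, hv, hj⟩ := R.jr (u ^ t)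
  refine ⟨T.j v, ?_, ⟨v, rfl⟩, ?_, ?_⟩
  · rw [← hj, map_pow]
    have h5 := pow_mem hmK t
    rw [mem_subgroupOf] at h5
    exact h5
  · intro hz
    obtain ⟨d, hd, hdv⟩ := T.j_mem_Z.1 hz
    apply hut
    apply sc_of_comm
    intro a
    apply R.inj
    have h1 : R.φ (mt (u ^ t)) * R.φ 1 = R.φ (mt (u ^ t)) := by rw [← map_mul, mul_one]
    have h1' : R.φ 1 * R.φ (mt (u ^ t)) = R.φ (mt (u ^ t)) := by rw [← map_mul, one_mul]
    have h11 : R.φ 1 * R.φ 1 = R.φ 1 := by rw [← map_mul, one_mul]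
    have h6 : R.φ (mt (u ^ t)) = d • R.φ 1 := by
      calc R.φ (mt (u ^ t)) = mt v * R.φ 1 := by
            rw [hv, add_mul, sub_mul, one_mul, h11, sub_self, add_zero, h1]
        _ = d • R.φ 1 := by rw [hdv, smul_mul_assoc, one_mul]
    rw [map_mul, map_mul, h6, smul_mul_assoc, mul_smul_comm, ← map_mul, ← map_mul, one_mul, mul_one]
  · rw [← hj, ← Subgroup.coe_pow, ← map_pow, hup, map_one, Subgroup.coe_one]
    exact one_mem _

/-- `K` normalises a Sylow `2`-subgroup of the special unitary group -/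
def NT {Γ : Type u} [Group Γ] {ι : Type} [Fintype ι] [DecidableEq ι] {E : Type} [CommRing E] [StarRing E]
    (T : TA Γ ι E) (K : Subgroup Γ) : Prop :=
  ∃ P : Subgroup Γ, P ≤ T.j.range ∧ IsPGroup 2 P ∧ ¬ 2 ∣ P.relIndex T.j.range ∧ K ≤ normalizer (P : Set Γ)

/-- the case of two complementary corners -/
theorem nt_glue (hF : Fpf.{u}) {p : ℕ} (hp : p.Prime) (hp2 : p ≠ 2) {Γ : Type u} [Group Γ] [Finite Γ] {ι : Type}
    [Fintype ι] [DecidableEq ι] {E : Type} [CommRing E] [StarRing E] (h : Gd E) [CharP E p] (T : TA Γ ι E)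
    (hS : Sml Γ) {K : Subgroup Γ} (hK : IsCarter K) {e : Matrix ι ι E} (he : IsP e) (heK : ∀ k ∈ K, T.ρ k e = e)
    {L1 L2 T1 T2 : Subgroup Γ} (hL1 : L1 = (LS (1 - e)).map T.j) (hL2 : L2 = (LS e).map T.j) (h1 : T1 ≤ L1)
    (h2 : T2 ≤ L2) (p1 : IsPGroup 2 T1) (p2 : IsPGroup 2 T2) (i1 : ¬ 2 ∣ T1.relIndex L1) (i2 : ¬ 2 ∣ T2.relIndex L2)
    (hK1 : K ≤ normalizer (T1 : Set Γ)) (hK2 : K ≤ normalizer (T2 : Set Γ)) : NT T K := by
  have hD := Cfsg.Agent.H35.CA.det_st h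
  have he1 := Cfsg.Agent.H55.CA.isP_one_sub he
  have heK' : ∀ k ∈ K, T.ρ k (1 - e) = 1 - e := fun k hk => by rw [map_sub, map_one, heK k hk]
  have hL1Y : L1 ≤ (CS e).map T.j := by
    rw [hL1, ← CS_compl]; exact map_mono (LS_le_CS he1)
  have hL2Y : L2 ≤ (CS e).map T.j := by
    rw [hL2]; exact map_mono (LS_le_CS he)
  have hc : ∀ x ∈ L1, ∀ y ∈ L2, x * y = y * x := by
    rw [hL1, hL2]
    rintro _ ⟨v, hv, rfl⟩ _ ⟨w, hw, rfl⟩
    rw [← map_mul, LS_comm he hv hw, map_mul]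
  obtain ⟨hTp, hTi⟩ := Cfsg.Agent.H248.CA.Prod.sylow_prod hc h1 h2 p1 p2 i1 i2
  have hLY : L1 ⊔ L2 ≤ (CS e).map T.j := sup_le hL1Y hL2Y
  -- `Y` normalises `L1 ⊔ L2`
  have hn1 : (CS e).map T.j ≤ normalizer (L1 : Set Γ) := by
    have key : ∀ y ∈ (CS e).map T.j, ∀ x ∈ L1, y * x * y⁻¹ ∈ L1 := by
      rw [hL1]
      rintro _ ⟨u, hu, rfl⟩ _ ⟨v, hv, rfl⟩
      rw [← map_inv, ← map_mul, ← map_mul]
      exact ⟨_, CS_norm (by rw [CS_compl]; exact hu) hv, rfl⟩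
    intro y hy
    rw [mem_normalizer_iff]
    intro x
    refine ⟨key y hy x, fun h => ?_⟩
    have h3 := key y⁻¹ (inv_mem hy) _ h
    have e3 : y⁻¹ * (y * x * y⁻¹) * y⁻¹⁻¹ = x := by group
    rwa [e3] at h3
  have hn2 : (CS e).map T.j ≤ normalizer (L2 : Set Γ) := by
    have key : ∀ y ∈ (CS e).map T.j, ∀ x ∈ L2, y * x * y⁻¹ ∈ L2 := by
      rw [hL2]
      rintro _ ⟨u, hu, rfl⟩ _ ⟨v, hv, rfl⟩
      rw [← map_inv, ← map_mul, ← map_mul]
      exact ⟨_, CS_norm hu hv, rfl⟩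
    intro y hy
    rw [mem_normalizer_iff]
    intro x
    refine ⟨key y hy x, fun h => ?_⟩
    have h3 := key y⁻¹ (inv_mem hy) _ h
    have e3 : y⁻¹ * (y * x * y⁻¹) * y⁻¹⁻¹ = x := by group
    rwa [e3] at h3
  have hsup : ∀ {A B M : Subgroup Γ}, M ≤ normalizer (A : Set Γ) → M ≤ normalizer (B : Set Γ) →
      M ≤ normalizer ((A ⊔ B : Subgroup Γ) : Set Γ) := by
    intro A B M hA hB x hx
    rw [mem_normalizer_iff_map_conj_eq, Subgroup.map_sup]
    rw [mem_normalizer_iff_map_conj_eq.1 (hA hx), mem_normalizer_iff_map_conj_eq.1 (hB hx)]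
  have hnL : (CS e).map T.j ≤ normalizer ((L1 ⊔ L2 : Subgroup Γ) : Set Γ) := hsup hn1 hn2
  have hKY : K ≤ normalizer (((CS e).map T.j : Subgroup Γ) : Set Γ) :=
    norm_map T hD fun k hk v hv => act_CS T hD (heK k hk) hv
  have hKL1 : K ≤ normalizer (L1 : Set Γ) := by
    rw [hL1]; exact norm_map T hD fun k hk v hv => act_LS T hD (heK' k hk) hv
  have hKL2 : K ≤ normalizer (L2 : Set Γ) := by
    rw [hL2]; exact norm_map T hD fun k hk v hv => act_LS T hD (heK k hk) hv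
  have hnorm : ((L1 ⊔ L2).subgroupOf ((CS e).map T.j)).Normal := by
    rw [normal_subgroupOf_iff_le_normalizer hLY]
    exact hnL
  have hCy := h.cyclic
  have hcyc : IsCyclic (↥((CS e).map T.j) ⧸ (L1 ⊔ L2).subgroupOf ((CS e).map T.j)) := by
    refine Cfsg.Agent.H248.CA.Prod.isCyclic_quot T.j (CS e) (dcor he) (L1 ⊔ L2) ?_
    intro u hu
    obtain ⟨v, hv, w, hw, huv⟩ := dcor_ker he hu
    rw [huv, map_mul]
    refine mul_mem (mem_sup_left ?_) (mem_sup_right ?_)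
    · rw [hL1]; exact ⟨v, hv, rfl⟩
    · rw [hL2]; exact ⟨w, hw, rfl⟩
  obtain ⟨P, hPY, hPp, hPi, hPK⟩ := Cfsg.Agent.H248.CA.sylow_two_ext hS hK ((CS e).map T.j) (L1 ⊔ L2) (T1 ⊔ T2) hLY hKY
    (hsup hKL1 hKL2) hnL hcyc (sup_le_sup h1 h2) hTp hTi (hsup hK1 hK2)
  have hYr : (CS e).map T.j ≤ T.j.range := by
    rw [MonoidHom.range_eq_map] ; exact map_mono le_top
  refine ⟨P, hPY.trans hYr, hPp, ?_, hPK⟩
  rw [← relIndex_mul_relIndex _ _ _ hPY hYr]
  refine Nat.Prime.not_dvd_mul Nat.prime_two hPi ?_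
  -- the index of `Y`
  obtain ⟨s1, s2, f, hd, hsys, hs1⟩ := exists_sys h T hS hK hp hF hp2 he heK
  have hodd : ¬ 2 ∣ (CS e).index := by
    refine Cfsg.Agent.H55.CA.index_odd h (by
      have := isUnit_of_ne (E := E) h hp Nat.prime_two hp2.symm
      exact_mod_cast this) (two_st h) (s1 ∪ s2) f hsys.isP hsys.orth hsys.sum hsys.rk (CS e) ?_
    intro u hu
    rw [mem_CS, ← hs1, Finset.mul_sum, Finset.sum_mul]
    exact Finset.sum_congr rfl fun a ha => hu a (Finset.mem_union_left _ ha)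
  intro hdv
  rw [MonoidHom.range_eq_map, relIndex_map_map, top_sup_eq, relIndex_top_right] at hdv
  exact hodd (hdv.trans (index_dvd_of_le le_sup_left))

/-- **NTwo** -/
theorem nTwo_aux (hF : Fpf.{u}) {p : ℕ} (hp : p.Prime) (hp2 : p ≠ 2) (n : ℕ) :
    ∀ (Γ : Type u) [Group Γ] [Finite Γ] (ι : Type) [Fintype ι] [DecidableEq ι] (E : Type) [CommRing E] [StarRing E]
      (h : Gd E) [CharP E p] (T : TA Γ ι E) (hS : Sml Γ) (K : Subgroup Γ) (hK : IsCarter K),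
      Fintype.card ι = n → ¬ Hex T K p → NT T K := by
  induction n using Nat.strong_induction_on with
  | _ n IH =>
  intro Γ _ _ ι _ _ E _ _ h _ T hS K hK hn hP
  have hD := Cfsg.Agent.H35.CA.det_st h
  have : Fact (Nat.Prime 2) := ⟨Nat.prime_two⟩
  by_cases h0 : n = 0
  · have : IsEmpty ι := Fintype.card_eq_zero_iff.1 (by omega)
    exact T.lemma_x_ta hD hF hS hK (l := 2) fun r hr hr2 hex => by
      obtain ⟨k, -, ⟨u, rfl⟩, hkZ, -⟩ := hex
      exact hkZ (T.j_mem_Z.2 ⟨1, by rw [star_one, one_mul], Matrix.ext fun i => isEmptyElim i⟩)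
  by_cases h2 : ∃ a : ℕ, n = 2 ^ a
  · obtain ⟨a, ha⟩ := h2
    exact T.lemma_x_ta hD hF hS hK (l := 2) fun r hr hr2 =>
      not_hex_odd h T hS hK hp hF hp2 (a := a) (by rw [hn, ha]) hP hr hr2
  · obtain ⟨e, he, he0, he1, heK⟩ := claim1 hF hp hp2 n Γ ι E h T hS K hK hn h2 h0
    obtain ⟨ι1, i1, i2, R1, hR1, hc1, hr1, hL1⟩ := corner' h T he heK
    obtain ⟨ι2, j1, j2, R2, hR2, hc2, hr2, hL2⟩ := corner' h T (Cfsg.Agent.H55.CA.isP_one_sub he)
      (K := K) (fun k hk => by rw [map_sub, map_one, heK k hk])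
    have hlt1 : Fintype.card ι1 < n := by rw [hc1, ← hn]; exact rk_lt h he he1
    have hlt2 : Fintype.card ι2 < n := by
      rw [hc2, ← hn]; exact rk_lt h (Cfsg.Agent.H55.CA.isP_one_sub he) (one_sub_ne he0)
    obtain ⟨P1, a1, a2, a3, a4⟩ := IH _ hlt1 R1.M ι1 E h R1.T' (hS.subgroup R1.M) (K.subgroupOf R1.M) (R1.carter hK) rfl
      (fun hc => hP (hex_of_red h R1 hp hc))
    obtain ⟨P2, b1, b2, b3, b4⟩ := IH _ hlt2 R2.M ι2 E h R2.T' (hS.subgroup R2.M) (K.subgroupOf R2.M) (R2.carter hK) rfl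
      (fun hc => hP (hex_of_red h R2 hp hc))
    rw [sub_sub_cancel] at hL2
    exact nt_glue hF hp hp2 h T hS hK he heK (L1 := R1.T'.j.range.map R1.M.subtype)
      (L2 := R2.T'.j.range.map R2.M.subtype) (T1 := P1.map R1.M.subtype) (T2 := P2.map R2.M.subtype) hL1 hL2
      (map_mono a1) (map_mono b1) (a2.map _) (b2.map _)
      (by rw [relIndex_map_map_of_injective _ _ (subtype_injective _)]; exact a3)
      (by rw [relIndex_map_map_of_injective _ _ (subtype_injective _)]; exact b3)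
      (R1.map_inv a4) (R2.map_inv b4)

theorem nTwo (hF : Fpf.{u}) {p : ℕ} (hp : p.Prime) (hp2 : p ≠ 2) {Γ : Type u} [Group Γ] [Finite Γ] {ι : Type}
    [Fintype ι] [DecidableEq ι] {E : Type} [CommRing E] [StarRing E] (h : Gd E) [CharP E p] (T : TA Γ ι E)
    (hS : Sml Γ) {K : Subgroup Γ} (hK : IsCarter K) (hn : 3 ≤ Fintype.card ι) : NT T K :=
  nTwo_aux hF hp hp2 _ Γ ι E h T hS K hK rfl (claimP h T hS hK hp hF hp2 hn)

end Cfsg.Agent.H308.CA
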