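import Cfsg.Agent.H308.CA.Main3

/-!
# Characteristic two: a Carter subgroup normalises a nontrivial `2`-subgroup of the special unitary group
-/

set_option autoImplicit false
set_option linter.unusedSectionVars false
set_option linter.unusedVariables false

namespace Cfsg.Agent.H308.CA

open Subgroup Pointwise Matrix
open Cfsg.Agent.Solvable.Carter Cfsg.Agent.H18.Carter Cfsg.Agent.H381.Car

universe u

section
variable {ι : Type} [Fintype ι] [DecidableEq ι] {E : Type} [CommRing E] [StarRing E]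

/-- a transvection -/
theorem exists_two (h : Gd E) [CharP E 2] (hι : 2 ≤ Fintype.card ι) : ∃ u : SU ι E, u ^ 2 = 1 ∧ u ≠ 1 := by
  have : Nontrivial E := h.nontrivial
  obtain ⟨i, j, hij⟩ := Fintype.exists_pair_of_one_lt_card (by omega : 1 < Fintype.card ι)
  have h2 : (2 : E) = 0 := by exact_mod_cast CharP.cast_eq_zero E 2
  set v : ι → E := fun x => if x = i ∨ x = j then 1 else 0 with hv
  have hvs : ∀ x, star (v x) = v x := by
    intro x
    rw [hv]
    by_cases hx : x = i ∨ x = j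
    · simp only [if_pos hx, star_one]
    · simp only [if_neg hx, star_zero]
  have hvv : v ⬝ᵥ v = 0 := by
    have h1 : ∀ x, v x * v x = if x = i ∨ x = j then 1 else 0 := by
      intro x
      rw [hv]
      by_cases hx : x = i ∨ x = j
      · simp only [if_pos hx, one_mul]
      · simp only [if_neg hx, zero_mul]
    rw [dotProduct, Finset.sum_congr rfl fun x _ => h1 x, Finset.sum_ite, Finset.sum_const_zero, add_zero,
      Finset.sum_const]
    have : (Finset.univ.filter fun x => x = i ∨ x = j) = {i, j} := by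
      ext x
      simp
    rw [this, Finset.card_pair hij, nsmul_eq_mul, Nat.cast_ofNat, h2, zero_mul]
  set N : Matrix ι ι E := vecMulVec v v with hN
  have hNs : star N = N := by
    ext x y
    rw [Matrix.star_apply, hN, vecMulVec_apply, vecMulVec_apply, star_mul, hvs, hvs]
  have hNN : N * N = 0 := by
    rw [hN, vecMulVec_mul_vecMulVec, hvv, zero_smul, vecMulVec_zero]
  have hadd : N + N = 0 := by
    rw [← two_smul E N, h2, zero_smul]
  have h11 : (1 + N) * (1 + N) = 1 := by
    rw [add_mul, mul_add, mul_add, hNN, one_mul, one_mul, mul_one, add_zero, add_assoc, hadd, add_zero]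
  refine ⟨mkSU (1 + N) ?_ ?_, ?_, ?_⟩
  · rw [star_add, star_one, hNs, h11]
  · rw [hN, vecMulVec_eq Unit, det_one_add_replicateCol_mul_replicateRow, hvv, add_zero]
  · apply mt_injective
    rw [map_pow, mt_mkSU, sq, h11, map_one]
  · intro hc
    have h3 := congrArg (mt : SU ι E → Matrix ι ι E) hc
    rw [mt_mkSU, map_one, add_eq_left] at h3
    have h4 := congrFun (congrFun h3 i) i
    rw [hN, vecMulVec_apply, hv] at h4
    simp only [true_or, if_true, mul_one, Matrix.zero_apply] at h4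
    exact one_ne_zero h4

theorem range_two {Γ : Type u} [Group Γ] [Finite Γ] (T : TA Γ ι E) (h : Gd E) [CharP E 2]
    (hι : 2 ≤ Fintype.card ι) : 2 ∣ Nat.card T.j.range := by
  obtain ⟨u, hu, hu1⟩ := exists_two (ι := ι) h hι
  have hι' : Nonempty ι := Fintype.card_pos_iff.1 (by omega)
  have h1 : T.j u ≠ 1 := by
    intro hc
    obtain ⟨c, hc1, hcu⟩ := T.j_mem_Z.1 (by rw [hc]; exact one_mem _ : T.j u ∈ T.Z)
    apply hu1
    apply mt_injective
    rw [map_one, hcu]
    have h2 := congrArg (mt : SU ι E → Matrix ι ι E) hu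
    rw [map_pow, map_one, hcu, smul_pow, one_pow] at h2
    obtain ⟨i⟩ := hι'
    have h3 := congrFun (congrFun h2 i) i
    rw [Matrix.smul_apply, Matrix.one_apply_eq, smul_eq_mul, mul_one] at h3
    rw [Cfsg.Agent.H689.CA.eq_one_of_pow h Nat.prime_two h3, one_smul]
  have h3 : orderOf (⟨T.j u, ⟨u, rfl⟩⟩ : T.j.range) = 2 := by
    refine orderOf_eq_prime ?_ ?_
    · exact Subtype.ext (by
        change (T.j u) ^ 2 = 1
        rw [← map_pow, hu, map_one])
    · intro hc
      exact h1 (congrArg Subtype.val hc)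
  rw [← h3]
  exact orderOf_dvd_natCard _

end
/-- `K` normalises a nontrivial `2`-subgroup -/
def Ev {Γ : Type u} [Group Γ] {ι : Type} [Fintype ι] [DecidableEq ι] {E : Type} [CommRing E] [StarRing E]
    (T : TA Γ ι E) (K : Subgroup Γ) : Prop :=
  ∃ P : Subgroup Γ, P ≤ T.j.range ∧ P ≠ ⊥ ∧ IsPGroup 2 P ∧ K ≤ normalizer (P : Set Γ)

theorem Ev.of_red {Γ : Type u} [Group Γ] {ι : Type} [Fintype ι] [DecidableEq ι] {E : Type} [CommRing E] [StarRing E]
    {T : TA Γ ι E} {K : Subgroup Γ} {ι' : Type} [Fintype ι'] [DecidableEq ι'] {E' : Type} [CommRing E'] [StarRing E']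
    (R : RedS T K ι' E') (h : Ev R.T' (K.subgroupOf R.M)) : Ev T K := by
  obtain ⟨P, h1, h2, h3, h4⟩ := h
  refine ⟨P.map R.M.subtype, (map_mono h1).trans R.range_le, ?_, h3.map _, R.map_inv h4⟩
  intro hb
  rw [map_eq_bot_iff_of_injective _ (subtype_injective _)] at hb
  exact h2 hb

theorem even_aux (hF : Fpf.{u}) (n : ℕ) :
    ∀ (Γ : Type u) [Group Γ] [Finite Γ] (ι : Type) [Fintype ι] [DecidableEq ι] (E : Type) [CommRing E] [StarRing E]
      (h : Gd E) [CharP E 2] (T : TA Γ ι E) (hS : Sml Γ) (K : Subgroup Γ) (hK : IsCarter K),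
      Fintype.card ι = n → 2 ≤ n → Ev T K := by
  induction n using Nat.strong_induction_on with
  | _ n IH =>
  intro Γ _ _ ι _ _ E _ _ h _ T hS K hK hn hn2
  have hD := Cfsg.Agent.H35.CA.det_st h
  have : Fact (Nat.Prime 2) := ⟨Nat.prime_two⟩
  have hfam := fam_st h
  by_cases hA : ∃ r : ℕ, r.Prime ∧ r ≠ 2 ∧ Hex T K r
  · obtain ⟨r, hr, hr2, hex⟩ := hA
    rcases step h hD (Cfsg.Agent.H908.CarterPC.pc_st h) (Cfsg.Agent.H957.CarLab.lab_st h hfam) (ex_st h) hS hK
      hr hr2 (isUnit_of_ne h Nat.prime_two hr hr2) hex with ⟨e, he, he0, he1, heK⟩ | ⟨m, E', i, s, hG, hc, hrm, hch, R, hR⟩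
    · have he' := Cfsg.Agent.H55.CA.isP_one_sub he
      have heK' : ∀ k ∈ K, T.ρ k (1 - e) = 1 - e := fun k hk => by rw [map_sub, map_one, heK k hk]
      have hee : e * (1 - e) = 0 := by rw [mul_sub, mul_one, he.idem, sub_self]
      have hne : rk e ≠ rk (1 - e) := by
        intro hr
        have h1 := T.rk_ne hD hfam hS hK he he' hee heK heK' hr
        apply he0
        rw [← he.idem]
        nth_rw 2 [h1]
        exact hee
      have h1 := Cfsg.Agent.H55.CA.rk_sub h he
      have h2 : rk e ≠ 0 := fun h0 => he0 ((Cfsg.Agent.H55.CA.rk_eq_zero h he).1 h0)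
      have h3 : rk (1 - e) ≠ 0 := fun h0 => he1 (by
        rw [Cfsg.Agent.H55.CA.rk_eq_zero h he', sub_eq_zero] at h0
        exact h0.symm)
      have h4 : ∃ f : Matrix ι ι E, IsP f ∧ f ≠ 1 ∧ (∀ k ∈ K, T.ρ k f = f) ∧ 2 ≤ rk f := by
        by_cases h5 : 2 ≤ rk e
        · exact ⟨e, he, he1, heK, h5⟩
        · exact ⟨1 - e, he', one_sub_ne he0, heK', by omega⟩
      obtain ⟨f, hf, hf1, hfK, hf2⟩ := h4
      obtain ⟨ι', i1, i2, R, hR, hcR, -⟩ := corner h T hf hfK
      have hlt : Fintype.card ι' < n := by rw [hcR, ← hn]; exact rk_lt h hf hf1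
      exact Ev.of_red R (IH _ hlt R.M ι' E h R.T' (hS.subgroup R.M) (K.subgroupOf R.M) (R.carter hK) rfl
        (by rw [hcR]; exact hf2))
    · let _ := i
      let _ := s
      have : CharP E' 2 := hch 2 inferInstance
      have hm0 : m ≠ 0 := by
        rintro rfl
        rw [mul_zero] at hc
        omega
      have hmn : m < n := by
        rw [← hn, hc]
        have := hr.one_lt
        nlinarith [Nat.pos_of_ne_zero hm0]
      have hm2 : 2 ≤ m := by
        have h1 := Nat.le_of_dvd (Nat.pos_of_ne_zero hm0) hrm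
        exact hr.two_le.trans h1
      exact Ev.of_red R (IH m hmn R.M (Fin m) E' hG R.T' (hS.subgroup R.M) (K.subgroupOf R.M) (R.carter hK)
        (Fintype.card_fin m) hm2)
  · push Not at hA
    obtain ⟨P, hPr, hPp, hPi, hPK⟩ := T.lemma_x_ta hD hF hS hK (l := 2) fun r hr hr2 => hA r hr hr2
    refine ⟨P, hPr, ?_, hPp, hPK⟩
    rintro rfl
    rw [relIndex_bot_left] at hPi
    exact hPi (range_two T h (by omega))

theorem even_ta (hF : Fpf.{u}) {Γ : Type u} [Group Γ] [Finite Γ] {ι : Type} [Fintype ι] [DecidableEq ι] {E : Type}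
    [CommRing E] [StarRing E] (h : Gd E) [CharP E 2] (T : TA Γ ι E) (hS : Sml Γ) {K : Subgroup Γ} (hK : IsCarter K)
    (hn : 2 ≤ Fintype.card ι) : Ev T K :=
  even_aux hF _ Γ ι E h T hS K hK rfl hn

end Cfsg.Agent.H308.CA
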