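import Cfsg.Agent.H308.CA.Main5
import Cfsg.Agent.H683.CA.BridgeLin
import Cfsg.Agent.H466.CA.BridgeUni
import Cfsg.Agent.H248.CA.CardU

/-!
# The rows `PSL_n`, `PSU_n`, `n ≥ 3`
-/

set_option autoImplicit false
set_option linter.unusedSectionVars false
set_option linter.unusedVariables false

namespace Cfsg.Agent.H308.CA

open Subgroup Pointwise Matrix
open Cfsg.Agent.Solvable.Carter Cfsg.Agent.H18.Carter Cfsg.Agent.H381.Car

universe u

section

variable {G : Type u} [Group G] [Finite G] {S : Subgroup G} [S.Normal]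

/-- two Carter subgroups normalising Sylow `2`-subgroups of `S` are conjugate -/
theorem conj_of_two (c : Ctx G S) (h2 : 2 ∣ Nat.card S) {K H : Subgroup G} (hK : IsCarter K) (hH : IsCarter H)
    (h1 : ∃ P : Subgroup G, P ≤ S ∧ IsPGroup 2 P ∧ ¬ 2 ∣ P.relIndex S ∧ K ≤ normalizer (P : Set G))
    (h3 : ∃ P : Subgroup G, P ≤ S ∧ IsPGroup 2 P ∧ ¬ 2 ∣ P.relIndex S ∧ H ≤ normalizer (P : Set G)) :
    ∃ g : G, MulAut.conj g • K = H := by
  obtain ⟨P, hPS, hPp, hPl, hPK⟩ := h1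
  obtain ⟨R, hRS, hRp, hRl, hRH⟩ := h3
  have : Fact (Nat.Prime 2) := ⟨Nat.prime_two⟩
  have hp1 : IsPGroup 2 (P.subgroupOf S) := hPp.comap_of_injective S.subtype S.subtype_injective
  have hp2 : IsPGroup 2 (R.subgroupOf S) := hRp.comap_of_injective S.subtype S.subtype_injective
  obtain ⟨s, hs⟩ := MulAction.exists_smul_eq S (hp1.toSylow hPl) (hp2.toSylow hRl)
  have hs' : MulAut.conj s • P.subgroupOf S = R.subgroupOf S := by
    have := congrArg (fun Q : Sylow 2 S => (Q : Subgroup S)) hs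
    exact this
  have hPR : MulAut.conj (s : G) • P = R := by
    rw [conj_smul_subgroupOf hPS, subgroupOf_inj] at hs'
    rwa [inf_eq_left.mpr hRS, inf_eq_left.mpr (conj_smul_le_of_le hPS s)] at hs'
  refine c.conj_of_le (M := normalizer (R : Set G)) ?_ (K := MulAut.conj (s : G) • K) (hK.conj _) hH ?_ hRH |>.imp' (fun g => g * s) ?_
  · have hRb : R ≠ ⊥ := by
      rintro rfl
      rw [relIndex_bot_left] at hRl
      exact hRl h2
    have : Group.IsNilpotent R := hRp.isNilpotent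
    exact c.norm_ne_top hRb inferInstance
  · intro x hx
    rw [mem_cj] at hx
    have h3 := hPK hx
    rw [← hPR, mem_normalizer_conj_smul]
    exact h3
  · rintro g ⟨_, hg⟩
    rw [map_mul, mul_smul]
    exact hg

/-- if every Carter subgroup normalises a Sylow `2`-subgroup of `S`, they are conjugate -/
theorem cc_of_two (c : Ctx G S) (h2 : 2 ∣ Nat.card S)
    (h : ∀ K : Subgroup G, IsCarter K →
      ∃ P : Subgroup G, P ≤ S ∧ IsPGroup 2 P ∧ ¬ 2 ∣ P.relIndex S ∧ K ≤ normalizer (P : Set G)) : CC G :=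
  fun K H hK hH => conj_of_two c h2 hK hH (h K hK) (h H hH)

end

section

variable {Γ : Type u} [Group Γ] {ι : Type} [Fintype ι] [DecidableEq ι] {E : Type} [CommRing E] [StarRing E]

theorem don_ta (hF : Fpf.{u}) {p : ℕ} (hp : p.Prime) (hp2 : p ≠ 2) [Finite Γ] (h : Gd E) [CharP E p] (T : TA Γ ι E)
    (hS : Sml Γ) {K : Subgroup Γ} (hK : IsCarter K) (hn : 3 ≤ Fintype.card ι) {r : ℕ} (hr : r.Prime) (hr2 : r ≠ 2)
    (hrd : ¬ r ∣ Nat.card (unitary E)) : ¬ Hex T K r := by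
  by_cases hrp : r = p
  · rw [hrp]; exact claimP h T hS hK hp hF hp2 hn
  · exact not_hex_of_not_dvd h T hS hK hp hr hr2 (isUnit_of_ne h hp hr hrp) hrd

/-- an involution which is not scalar -/
theorem exists_inv (h : Gd E)
    (h2 : (2 : E) ≠ 0) (hn : 3 ≤ Fintype.card ι) : ∃ u : SU ι E, u ^ 2 = 1 ∧ ¬ Sc (mt u) 1 := by
  have : Nontrivial E := h.nontrivial
  obtain ⟨i0, i1, i2, h01, h02, h12⟩ := Fintype.two_lt_card_iff.1 (by omega : 2 < Fintype.card ι)
  set a : ι → E := fun x => if x = i0 ∨ x = i1 then -1 else 1 with ha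
  have haa : ∀ x, star (a x) * a x = 1 := by
    intro x
    rw [ha]
    by_cases hx : x = i0 ∨ x = i1
    · simp only [if_pos hx, star_neg, star_one, neg_mul_neg, one_mul]
    · simp only [if_neg hx, star_one, one_mul]
  have haa' : ∀ x, a x * a x = 1 := by
    intro x
    rw [ha]
    by_cases hx : x = i0 ∨ x = i1
    · simp only [if_pos hx, neg_mul_neg, one_mul]
    · simp only [if_neg hx, one_mul]
  have hdet : ∏ x, a x = 1 := by
    rw [ha, Finset.prod_ite, Finset.prod_const, Finset.prod_const_one, mul_one]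
    have : (Finset.univ.filter fun x => x = i0 ∨ x = i1) = {i0, i1} := by
      ext x
      simp
    rw [this, Finset.card_pair h01, neg_one_sq]
  refine ⟨mkSU (Matrix.diagonal a) ?_ ?_, ?_, ?_⟩
  · rw [Matrix.star_eq_conjTranspose, Matrix.diagonal_conjTranspose, Matrix.diagonal_mul_diagonal, ← Matrix.diagonal_one]
    congr 1
    funext x
    exact haa x
  · rw [Matrix.det_diagonal]; exact hdet
  · apply mt_injective
    rw [map_pow, mt_mkSU, sq, Matrix.diagonal_mul_diagonal, map_one, ← Matrix.diagonal_one]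
    congr 1
    funext x
    exact haa' x
  · rintro ⟨c, hc, hcc⟩
    rw [mt_mkSU] at hcc
    have e0 := congrFun (congrFun hcc i0) i0
    have e2 := congrFun (congrFun hcc i2) i2
    rw [Matrix.diagonal_apply_eq, Matrix.smul_apply, Matrix.one_apply_eq, smul_eq_mul, mul_one] at e0 e2
    rw [ha] at e0 e2
    simp only [true_or, if_true] at e0
    have e3 : (1 : E) = c := by
      rw [← e2]
      exact (if_neg (by rintro (h | h); exacts [h02 h.symm, h12 h.symm])).symm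
    apply h2
    rw [← e0] at e3
    linear_combination e3

theorem two_dvd (h : Gd E) (h2 : (2 : E) ≠ 0) (hn : 3 ≤ Fintype.card ι) (T : TA Γ ι E) [Finite Γ] :
    2 ∣ Nat.card T.j.range := by
  obtain ⟨u, hu, hu1⟩ := exists_inv (ι := ι) h h2 hn
  have h1 : T.j u ≠ 1 := fun hc => hu1 (T.j_mem_Z.1 (by rw [hc]; exact one_mem _))
  have h3 : orderOf (⟨T.j u, ⟨u, rfl⟩⟩ : T.j.range) = 2 := by
    refine orderOf_eq_prime ?_ ?_
    · exact Subtype.ext (by
        change (T.j u) ^ 2 = 1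
        rw [← map_pow, hu, map_one])
    · intro hc
      exact h1 (congrArg Subtype.val hc)
  rw [← h3]
  exact orderOf_dvd_natCard _

/-- elements of prime order of `K ∩ S` -/
theorem hex_of_dvd [Finite Γ] (T : TA Γ ι E) (hT : ∀ u, T.j u = 1 ↔ Sc (mt u) 1) {K : Subgroup Γ} {r : ℕ}
    (hr : r.Prime) (hd : r ∣ Nat.card ↥(K ⊓ T.j.range)) : Hex T K r := by
  have : Fact r.Prime := ⟨hr⟩
  obtain ⟨x, hx⟩ := exists_prime_orderOf_dvd_card' (G := ↥(K ⊓ T.j.range)) r hd
  have h1 : (x : Γ) ^ r = 1 := by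
    rw [← Subgroup.coe_pow, ← hx, pow_orderOf_eq_one, Subgroup.coe_one]
  refine ⟨x, x.2.1, x.2.2, ?_, ?_⟩
  · rintro ⟨u, hu, hux⟩
    have h2 := (hT u).2 hu
    rw [hux] at h2
    have h3 : x = 1 := Subtype.ext h2
    rw [h3, orderOf_one] at hx
    exact hr.one_lt.ne hx
  · rw [h1]; exact one_mem _

end

/-- the characteristic of a finite field, not two -/
theorem exists_char (F : Type) [Field F] [Finite F] (h2 : (2 : F) ≠ 0) : ∃ p : ℕ, p.Prime ∧ p ≠ 2 ∧ CharP F p := by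
  obtain ⟨p, hp⟩ := CharP.exists F
  have hpp := CharP.char_is_prime F p
  refine ⟨p, hpp, ?_, hp⟩
  rintro rfl
  apply h2
  exact_mod_cast CharP.cast_eq_zero F 2

theorem not_three_two {F : Type} [Field F] [Fintype F] {n q : ℕ} (hq : Fintype.card F = q ^ 2) (h2 : (2 : F) ≠ 0) :
    ¬ (n = 3 ∧ q = 2) := by
  rintro ⟨-, rfl⟩
  apply h2
  have h3 : ((Fintype.card F : ℕ) : F) = 0 := Nat.cast_card_eq_zero F
  rw [hq, Nat.cast_pow, Nat.cast_ofNat] at h3
  exact pow_eq_zero_iff (two_ne_zero) |>.1 h3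

section

variable {G : Type u} [Group G] [Finite G] {S : Subgroup G} [S.Normal] (hc : centralizer (S : Set G) = ⊥)
  (hS : Sml G) {K : Subgroup G} (hK : IsCarter K)

section psl

variable {n : ℕ} (hn : 3 ≤ n) (F : Type) [Field F] [Finite F] (e : S ≃* Matrix.ProjectiveSpecialLinearGroup (Fin n) F)
include hc hS hK hn e

theorem psl_nTwo (hF : Fpf.{u}) (h2 : (2 : F) ≠ 0) :
    ∃ P : Subgroup G, P ≤ S ∧ IsPGroup 2 P ∧ ¬ 2 ∣ P.relIndex S ∧ K ≤ normalizer (P : Set G) := by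
  obtain ⟨T, hT, -⟩ := Cfsg.Agent.H683.CA.bridge_lin S hc F n hn e
  obtain ⟨p, hp, hp2, hpF⟩ := exists_char F h2
  have : CharP (Ex F) p := Cfsg.Agent.H206.CA.charP_ex.2 hpF
  have h1 := nTwo hF hp hp2 (Good.lin F inferInstance inferInstance) T hS hK (by rw [Fintype.card_fin]; exact hn)
  rw [NT, hT] at h1
  exact h1

theorem psl_don (hF : Fpf.{u}) (h2 : (2 : F) ≠ 0) {r : ℕ} (hr : r.Prime) (hr2 : r ≠ 2) (hd : r ∣ Nat.card ↥(K ⊓ S)) :
    r ∣ Nat.card F - 1 := by
  rw [← Cfsg.Agent.H248.CA.CardU.card_unitary_lin]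
  obtain ⟨T, hT, hT1⟩ := Cfsg.Agent.H683.CA.bridge_lin S hc F n hn e
  obtain ⟨p, hp, hp2, hpF⟩ := exists_char F h2
  have : CharP (Ex F) p := Cfsg.Agent.H206.CA.charP_ex.2 hpF
  by_contra hrd
  refine don_ta hF hp hp2 (Good.lin F inferInstance inferInstance) T hS hK (by rw [Fintype.card_fin]; exact hn) hr hr2
    hrd (hex_of_dvd T hT1 hr ?_)
  rw [hT]; exact hd

end psl

section psu

variable {n : ℕ} (hn : 3 ≤ n) (F : Type) [Field F] [Fintype F] {q : ℕ} (hq : Fintype.card F = q ^ 2)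
  (e : S ≃* Cfsg.PSU n F q)
include hc hS hK hn e hq

theorem psu_nTwo (hF : Fpf.{u}) (h2 : (2 : F) ≠ 0) :
    ∃ P : Subgroup G, P ≤ S ∧ IsPGroup 2 P ∧ ¬ 2 ∣ P.relIndex S ∧ K ≤ normalizer (P : Set G) := by
  obtain ⟨p, hp, hp2, hpF⟩ := exists_char F h2
  obtain ⟨s, hs, T, hT, -⟩ := Cfsg.Agent.H466.CA.BridgeUni.bridge_uni S hc F n q hq hn (not_three_two hq h2) e
  have h1 := nTwo hF hp hp2 (Good.uni F inferInstance s inferInstance hs) T hS hK (by rw [Fintype.card_fin]; exact hn)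
  rw [NT, hT] at h1
  exact h1

theorem psu_don (hF : Fpf.{u}) (h2 : (2 : F) ≠ 0) {r : ℕ} (hr : r.Prime) (hr2 : r ≠ 2) (hd : r ∣ Nat.card ↥(K ⊓ S)) :
    r ∣ q + 1 := by
  obtain ⟨p, hp, hp2, hpF⟩ := exists_char F h2
  obtain ⟨s, hs, T, hT, hT1⟩ := Cfsg.Agent.H466.CA.BridgeUni.bridge_uni S hc F n q hq hn (not_three_two hq h2) e
  rw [← Cfsg.Agent.H248.CA.CardU.card_unitary_uni F hs q (by rw [Nat.card_eq_fintype_card, hq])]
  by_contra hrd
  refine don_ta hF hp hp2 (Good.uni F inferInstance s inferInstance hs) T hS hK (by rw [Fintype.card_fin]; exact hn) hr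
    hr2 hrd (hex_of_dvd T hT1 hr ?_)
  rw [hT]; exact hd

end psu

end

section

variable {G : Type u} [Group G] [Finite G] {S : Subgroup G} [S.Normal]

/-- **the row** `PSL_n(F)`, `n ≥ 3`, `F` of odd characteristic -/
theorem row_psl (hFp : Fpf.{u}) (c : Ctx G S) {n : ℕ} (hn : 3 ≤ n) {F : Type} [Field F] [Finite F] (h2 : (2 : F) ≠ 0)
    (e : S ≃* Matrix.ProjectiveSpecialLinearGroup (Fin n) F) : CC G := by
  refine cc_of_two c ?_ fun K hK => psl_nTwo c.cen c.min hK hn F e hFp h2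
  obtain ⟨T, hT, -⟩ := Cfsg.Agent.H683.CA.bridge_lin S c.cen F n hn e
  have h3 := two_dvd (Good.lin F inferInstance inferInstance) (fun hc => h2 (by
    have := congrArg Prod.fst hc
    exact this)) (by rw [Fintype.card_fin]; exact hn) T
  rwa [hT] at h3

/-- **the row** `PSU_n(q)`, `n ≥ 3`, `q` odd -/
theorem row_psu (hFp : Fpf.{u}) (c : Ctx G S) {n : ℕ} (hn : 3 ≤ n) {F : Type} [Field F] [Fintype F] {q : ℕ}
    (hq : Fintype.card F = q ^ 2) (h2 : (2 : F) ≠ 0) (e : S ≃* Cfsg.PSU n F q) : CC G := by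
  refine cc_of_two c ?_ fun K hK => psu_nTwo c.cen c.min hK hn F hq e hFp h2
  obtain ⟨s, hs, T, hT, -⟩ := Cfsg.Agent.H466.CA.BridgeUni.bridge_uni S c.cen F n q hq hn (not_three_two hq h2) e
  have h3 := two_dvd (Good.uni F inferInstance s inferInstance hs) h2 (by rw [Fintype.card_fin]; exact hn) T
  rwa [hT] at h3

end

end Cfsg.Agent.H308.CA
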