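import Cfsg.Agent.H308.CA.Rows
import Cfsg.Agent.H308.CA.Main6

/-!
# `PSL_n`, `PSU_n`, `n ≥ 3`, characteristic two: `K` normalises a nontrivial `2`-subgroup
-/

set_option autoImplicit false
set_option linter.unusedSectionVars false
set_option linter.unusedVariables false

namespace Cfsg.Agent.H308.CA

open Subgroup Pointwise Matrix
open Cfsg.Agent.Solvable.Carter Cfsg.Agent.H18.Carter Cfsg.Agent.H381.Car

universe u

section

variable {G : Type u} [Group G] [Finite G] {S : Subgroup G} [S.Normal] (hc : centralizer (S : Set G) = ⊥)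
  (hS : Sml G) {K : Subgroup G} (hK : IsCarter K)

section psl

variable {n : ℕ} (hn : 3 ≤ n) (F : Type) [Field F] [Finite F] (e : S ≃* Matrix.ProjectiveSpecialLinearGroup (Fin n) F)
include hc hS hK hn e

theorem psl_even (hF : Fpf.{u}) (h2 : (2 : F) = 0) :
    ∃ P : Subgroup G, P ≤ S ∧ P ≠ ⊥ ∧ IsPGroup 2 P ∧ K ≤ normalizer (P : Set G) := by
  obtain ⟨T, hT, -⟩ := Cfsg.Agent.H683.CA.bridge_lin S hc F n hn e
  have hpF : CharP F 2 := CharTwo.of_one_ne_zero_of_two_eq_zero one_ne_zero h2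
  have : CharP (Ex F) 2 := Cfsg.Agent.H206.CA.charP_ex.2 hpF
  have h1 := even_ta hF (Good.lin F inferInstance inferInstance) T hS hK (by rw [Fintype.card_fin]; omega)
  rw [Ev, hT] at h1
  exact h1

end psl

section psu

variable {n : ℕ} (hn : 3 ≤ n) (F : Type) [Field F] [Fintype F] {q : ℕ} (hq : Fintype.card F = q ^ 2)
  (e : S ≃* Cfsg.PSU n F q)
include hc hS hK hn e hq

theorem psu_even (hF : Fpf.{u}) (h2 : (2 : F) = 0) (hq2 : ¬ (n = 3 ∧ q = 2)) :
    ∃ P : Subgroup G, P ≤ S ∧ P ≠ ⊥ ∧ IsPGroup 2 P ∧ K ≤ normalizer (P : Set G) := by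
  have hpF : CharP F 2 := CharTwo.of_one_ne_zero_of_two_eq_zero one_ne_zero h2
  obtain ⟨s, hs, T, hT, -⟩ := Cfsg.Agent.H466.CA.BridgeUni.bridge_uni S hc F n q hq hn hq2 e
  have h1 := even_ta hF (Good.uni F inferInstance s inferInstance hs) T hS hK (by rw [Fintype.card_fin]; omega)
  rw [Ev, hT] at h1
  exact h1

end psu

end

end Cfsg.Agent.H308.CA
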