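import Cfsg.Agent.H308.CA.Rows2
import Cfsg.Agent.H460.Car.Bridge
import Cfsg.Agent.KFacts.RgdFiltClass

/-!
# The rows `PSL_n`, `PSU_n`, `n ≥ 3`, as `NrAll`
-/

set_option autoImplicit false
set_option linter.unusedSectionVars false
set_option linter.unusedVariables false

namespace Cfsg.Agent.H308.CA

open Subgroup Pointwise
open Cfsg.Agent.Solvable.Carter Cfsg.Agent.H18.Carter Cfsg.Agent.H381.Car
open Cfsg.Agent.H460.Car (FT ExcOk)

universe u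

variable {G : Type u} [Group G] [Finite G] {S : Subgroup G} [S.Normal]

/-- `PSL_n(F)`, `n ≥ 3`, odd characteristic -/
theorem nrAll_psl_odd (hFp : Fpf.{u}) (c : Ctx G S) {n : ℕ} (hn : 3 ≤ n) {F : Type} [Field F] [Finite F]
    (h2 : (2 : F) ≠ 0) (e : S ≃* Matrix.ProjectiveSpecialLinearGroup (Fin n) F) : NrAll S :=
  fun K hK => psl_nTwo c.cen c.min hK hn F e hFp h2

/-- `PSU_n(q)`, `n ≥ 3`, `q` odd -/
theorem nrAll_psu_odd (hFp : Fpf.{u}) (c : Ctx G S) {n : ℕ} (hn : 3 ≤ n) {F : Type} [Field F] [Fintype F] {q : ℕ}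
    (hq : Fintype.card F = q ^ 2) (h2 : (2 : F) ≠ 0) (e : S ≃* Cfsg.PSU n F q) : NrAll S :=
  fun K hK => psu_nTwo c.cen c.min hK hn F hq e hFp h2

/-- `PSL_n(F)`, `n ≥ 3`, characteristic two -/
theorem nrAll_psl_even (hFp : Fpf.{u}) (hFT : FT.{u}) (hE : ExcOk.{u}) (c : Ctx G S) (IH : IHr G) {n : ℕ} (hn : 3 ≤ n)
    {F : Type} [Field F] [Fintype F] (h2 : (2 : F) = 0)
    (e : S ≃* Matrix.ProjectiveSpecialLinearGroup (Fin n) F) : NrAll S := by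
  have hpF : CharP F 2 := CharTwo.of_one_ne_zero_of_two_eq_zero one_ne_zero h2
  refine Cfsg.Agent.H460.Car.nrAll_of_inv hFT hE c IH
    (Cfsg.Agent.KFacts.RgdFiltClass.hasFilt_of_PSL ⟨F, inferInstance, inferInstance, hpF, n, by omega, by omega, ⟨e⟩⟩) ?_
  intro K hK
  exact psl_even c.cen c.min hK hn F e hFp h2

/-- `PSU_n(q)`, `n ≥ 3`, `q` even, not `PSU_3(2)` -/
theorem nrAll_psu_even (hFp : Fpf.{u}) (hFT : FT.{u}) (hE : ExcOk.{u}) (c : Ctx G S) (IH : IHr G) {n : ℕ} (hn : 3 ≤ n)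
    {F : Type} [Field F] [Fintype F] {q : ℕ} (hq : Fintype.card F = q ^ 2) (h2 : (2 : F) = 0)
    (hnq : ¬ (n = 3 ∧ q = 2)) (e : S ≃* Cfsg.PSU n F q) : NrAll S := by
  have hpF : CharP F 2 := CharTwo.of_one_ne_zero_of_two_eq_zero one_ne_zero h2
  refine Cfsg.Agent.H460.Car.nrAll_of_inv hFT hE c IH
    (Cfsg.Agent.KFacts.RgdFiltClass.hasFilt_of_PSU ⟨F, inferInstance, inferInstance, hpF, n, q, hq, hn, hnq, ⟨e⟩⟩) ?_
  intro K hK
  exact psu_even c.cen c.min hK hn F hq e hFp h2 hnq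

/-- all `PSL_n(F)`, `n ≥ 3` -/
theorem nrAll_psl (hFp : Fpf.{u}) (hFT : FT.{u}) (hE : ExcOk.{u}) (c : Ctx G S) (IH : IHr G) {n : ℕ} (hn : 3 ≤ n)
    {F : Type} [Field F] [Fintype F] (e : S ≃* Matrix.ProjectiveSpecialLinearGroup (Fin n) F) : NrAll S := by
  by_cases h2 : (2 : F) = 0
  · exact nrAll_psl_even hFp hFT hE c IH hn h2 e
  · exact nrAll_psl_odd hFp c hn h2 e

/-- all `PSU_n(q)`, `n ≥ 3`, not `PSU_3(2)` -/
theorem nrAll_psu (hFp : Fpf.{u}) (hFT : FT.{u}) (hE : ExcOk.{u}) (c : Ctx G S) (IH : IHr G) {n : ℕ} (hn : 3 ≤ n)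
    {F : Type} [Field F] [Fintype F] {q : ℕ} (hq : Fintype.card F = q ^ 2) (hnq : ¬ (n = 3 ∧ q = 2))
    (e : S ≃* Cfsg.PSU n F q) : NrAll S := by
  by_cases h2 : (2 : F) = 0
  · exact nrAll_psu_even hFp hFT hE c IH hn hq h2 hnq e
  · exact nrAll_psu_odd hFp c hn hq h2 e

end Cfsg.Agent.H308.CA
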