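import Cfsg.Agent.H308.CA.Fam
import Cfsg.Agent.H308.CA.Grp

/-!
# Carter subgroups of groups with a `TA` structure
-/

set_option autoImplicit false
set_option linter.unusedSectionVars false
set_option linter.unusedVariables false

namespace Cfsg.Agent.H308.CA

open Subgroup Pointwise
open Cfsg.Agent.Solvable.Carter Cfsg.Agent.H18.Carter Cfsg.Agent.H381.Car

universe u

/-- a subgroup contains `x` if it contains `x ^ r` and `x ^ a x⁻¹`, `r` prime, `a ≢ 1` -/
theorem mem_of_pow_mem {G : Type*} [Group G] {H : Subgroup G} {x : G} {r a : ℕ} (hr : r.Prime) (h1 : x ^ r ∈ H)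
    (h2 : x ^ a * x⁻¹ ∈ H) (ha : ¬ a ≡ 1 [MOD r]) : x ∈ H := by
  have h3 : x ^ ((a : ℤ) - 1) ∈ H := by
    rw [zpow_sub, zpow_natCast, zpow_one]
    exact h2
  have h4 : IsCoprime (r : ℤ) ((a : ℤ) - 1) := by
    have hp : Prime (r : ℤ) := Nat.prime_iff_prime_int.1 hr
    refine (Prime.coprime_iff_not_dvd hp).2 fun hd => ha ?_
    have h5 : (1 : ℤ) ≡ a [ZMOD r] := (Int.modEq_iff_dvd.2 hd)
    have h6 := (Int.natCast_modEq_iff (a := 1) (b := a) (n := r)).1 (by exact_mod_cast h5)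
    exact h6.symm
  obtain ⟨u, v, huv⟩ := h4
  have h7 : x = (x ^ r) ^ u * (x ^ ((a : ℤ) - 1)) ^ v := by
    rw [← zpow_natCast x r, ← zpow_mul, ← zpow_mul, ← zpow_add]
    have e : (r : ℤ) * u + ((a : ℤ) - 1) * v = 1 := by linarith [huv]
    rw [e, zpow_one]
  rw [h7]
  exact mul_mem (zpow_mem h1 _) (zpow_mem h3 _)

namespace TA

variable {Γ : Type u} [Group Γ] {ι : Type} [Fintype ι] [DecidableEq ι] {E : Type} [CommRing E] [StarRing E]
variable (T : TA Γ ι E)

/-- `x ^ r` scalar and `x ^ a ~ x` force `x` scalar -/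
theorem sc_of_pow {x : SU ι E} {r a : ℕ} (hr : r.Prime) (h1 : Sc (mt x ^ r) 1) (h2 : Sc (mt x ^ a) (mt x))
    (ha : ¬ a ≡ 1 [MOD r]) : Sc (mt x) 1 := by
  refine mem_of_pow_mem (H := scal ι E) hr ?_ ?_ ha
  · rw [mem_scal, map_pow]; exact h1
  · rw [mem_scal, map_mul, map_pow, mt_inv]
    have := h2.mul (Sc.refl (star (mt x)))
    rwa [mt_mul_star] at this

/-- **(A1)** for `TA` -/
theorem a1 [Finite Γ] (hS : Sml Γ) {K : Subgroup Γ} (hK : IsCarter K) {x : SU ι E}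
    (hx : ∀ k ∈ K, Sc (T.ρ k (mt x)) (mt x)) {g : SU ι E} {a : ℕ} (h : Sc (mt (g * x * g⁻¹)) (mt x ^ a)) :
    Sc (mt x ^ a) (mt x) := by
  have hC : K ≤ T.stab (mt x) := fun k hk => hx k hk
  have hg : T.ρ (T.j g) (mt x) = mt (g * x * g⁻¹) := by rw [T.ρ_j, map_mul, map_mul, mt_inv]
  have h1 : (T.j g)⁻¹ ∈ T.stab (mt x) := by
    refine mem_of_conj_le hS hK hC ?_
    intro y hy
    rw [mem_cj, inv_inv] at hy
    have hk := hx _ hy
    -- `y = g⁻¹ k g`
    set k := T.j g * y * (T.j g)⁻¹ with hkdef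
    have hy' : y = (T.j g)⁻¹ * (k * T.j g) := by rw [hkdef]; group
    rw [mem_stab, hy', T.ρ_mul, T.ρ_mul, hg]
    have h2 : Sc (T.ρ k (mt (g * x * g⁻¹))) (mt (g * x * g⁻¹)) := by
      refine (T.ρ_sc k h).trans ?_
      rw [map_pow]
      exact (hk.pow a).trans h.symm
    have h3 := T.ρ_sc (T.j g)⁻¹ h2
    have h4 : T.ρ (T.j g)⁻¹ (mt (g * x * g⁻¹)) = mt x := by rw [← hg, T.ρ_inv]
    rwa [h4] at h3
  have h5 := inv_mem h1
  rw [inv_inv, j_stab] at h5
  exact h.symm.trans h5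

theorem not_conj_pow [Finite Γ] (hS : Sml Γ) {K : Subgroup Γ} (hK : IsCarter K) {x : SU ι E}
    (hx : ∀ k ∈ K, Sc (T.ρ k (mt x)) (mt x)) {r : ℕ} (hr : r.Prime) (hxr : Sc (mt x ^ r) 1) (hx1 : ¬ Sc (mt x) 1)
    {g : SU ι E} {a : ℕ} (h : Sc (mt (g * x * g⁻¹)) (mt x ^ a)) : a ≡ 1 [MOD r] := by
  by_contra ha
  exact hx1 (sc_of_pow hr hxr (T.a1 hS hK hx h) ha)

variable (hD : DetSt E)
include hD

/-- central elements modulo the scalars -/
theorem central_mod [Finite Γ] (hS : Sml Γ) {K : Subgroup Γ} (hK : IsCarter K) {r : ℕ} [hr : Fact r.Prime]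
    (h : ∃ k ∈ K, k ∈ T.j.range ∧ k ∉ T.Z ∧ k ^ r ∈ T.Z) :
    ∃ x : SU ι E, T.j x ∈ K ∧ ¬ Sc (mt x) 1 ∧ Sc (mt x ^ r) 1 ∧ ∀ k ∈ K, Sc (T.ρ k (mt x)) (mt x) := by
  have hZn := T.Z_normal hD
  have hNn := T.range_normal hD
  let π := QuotientGroup.mk' T.Z
  have hπ : Function.Surjective π := QuotientGroup.mk'_surjective _
  have hNn' : (T.j.range.map π).Normal := Subgroup.Normal.map inferInstance π hπ
  have hK' := carter_map hS hπ hK
  obtain ⟨k, hk, hkN, hkZ, hkr⟩ := h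
  have ho : orderOf (π k) = r := by
    refine orderOf_eq_prime ?_ ?_
    · rw [← map_pow]; exact (QuotientGroup.eq_one_iff _).2 hkr
    · intro h1; exact hkZ ((QuotientGroup.eq_one_iff _).1 h1)
  have hd : r ∣ Nat.card (K.map π ⊓ T.j.range.map π : Subgroup (Γ ⧸ T.Z)) := by
    have h1 := orderOf_dvd_natCard (⟨π k, ⟨mem_map_of_mem π hk, mem_map_of_mem π hkN⟩⟩ :
      (K.map π ⊓ T.j.range.map π : Subgroup (Γ ⧸ T.Z)))
    rw [← Subgroup.orderOf_coe] at h1
    rwa [show orderOf (π k) = r from ho] at h1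
  obtain ⟨z, hzN, hzK, hzo, hzc⟩ := exists_central hK'.1 hd
  obtain ⟨k', hk', rfl⟩ := hzK
  obtain ⟨_, ⟨n, rfl⟩, hn⟩ := hzN
  have h2 : k'⁻¹ * T.j n ∈ T.Z := QuotientGroup.eq.1 hn.symm
  have hk'N : k' ∈ T.j.range := by
    have h3 := mul_mem (⟨n, rfl⟩ : T.j n ∈ T.j.range) (inv_mem (T.Z_le h2))
    have e : T.j n * (k'⁻¹ * T.j n)⁻¹ = k' := by group
    rwa [e] at h3
  obtain ⟨x, rfl⟩ := hk'N
  refine ⟨x, hk', ?_, ?_, ?_⟩
  · intro hs
    have h4 : π (T.j x) = 1 := (QuotientGroup.eq_one_iff _).2 (T.j_mem_Z.2 hs)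
    rw [h4, orderOf_one] at hzo
    exact hr.out.one_lt.ne hzo
  · have h5 : π (T.j x) ^ r = 1 := by rw [← hzo]; exact pow_orderOf_eq_one _
    rw [← map_pow, ← map_pow] at h5
    have h6 : T.j (x ^ r) ∈ T.Z := (QuotientGroup.eq_one_iff _).1 h5
    have h7 := T.j_mem_Z.1 h6
    rwa [map_pow] at h7
  · intro k hk
    have h8 := mem_centralizer_singleton_iff.1 (hzc (mem_map_of_mem π hk))
    -- `k (j x) k⁻¹ (j x)⁻¹ ∈ Z`
    have h9 : T.j (T.act hD k x * x⁻¹) ∈ T.Z := by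
      rw [map_mul, ← T.conj_eq hD, map_inv]
      refine (QuotientGroup.eq_one_iff _).1 ?_
      change π (k * T.j x * k⁻¹ * (T.j x)⁻¹) = 1
      rw [map_mul, map_mul, map_mul, map_inv, map_inv, h8]
      group
    have h10 := T.j_mem_Z.1 h9
    rw [map_mul, T.mt_act, mt_inv] at h10
    have h11 := h10.mul (Sc.refl (mt x))
    rwa [mul_assoc, star_mt_mul, mul_one, one_mul] at h11

/-- **Lemma X** for `TA` -/
theorem lemma_x_ta [Finite Γ] (hF : Fpf.{u}) (hS : Sml Γ) {K : Subgroup Γ} (hK : IsCarter K) {l : ℕ}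
    [hl : Fact l.Prime] (h : ∀ r : ℕ, r.Prime → r ≠ l → ¬ ∃ k ∈ K, k ∈ T.j.range ∧ k ∉ T.Z ∧ k ^ r ∈ T.Z) :
    ∃ P : Subgroup Γ, P ≤ T.j.range ∧ IsPGroup l P ∧ ¬ l ∣ P.relIndex T.j.range ∧ K ≤ normalizer (P : Set Γ) := by
  have hZn := T.Z_normal hD
  have hNn := T.range_normal hD
  refine lemma_x_mod hF hS T.j.range T.Z T.Z_le (fun z hz n hn => T.Z_comm hz hn) hK ?_
  intro k hk hkN
  -- the order modulo `Z`
  set o := orderOf (QuotientGroup.mk' T.Z k) with ho
  have hopos : 0 < o := orderOf_pos _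
  have ho1 : k ^ o ∈ T.Z := by
    have : (QuotientGroup.mk' T.Z k) ^ o = 1 := pow_orderOf_eq_one _
    rw [← map_pow] at this
    exact (QuotientGroup.eq_one_iff _).1 this
  obtain ⟨n, hn⟩ : ∃ n, o = l ^ n := by
    refine ⟨_, Nat.eq_prime_pow_of_unique_prime_dvd hopos.ne' ?_⟩
    intro r hr hd
    by_contra hne
    obtain ⟨m, hm⟩ := hd
    refine h r hr hne ⟨k ^ m, pow_mem hk m, pow_mem hkN m, ?_, ?_⟩
    · intro h1
      have h2 : (QuotientGroup.mk' T.Z k) ^ m = 1 := by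
        rw [← map_pow]; exact (QuotientGroup.eq_one_iff _).2 h1
      have h3 := Nat.le_of_dvd (by
        rcases Nat.eq_zero_or_pos m with h0 | h0
        · rw [h0, mul_zero] at hm; omega
        · exact h0) (orderOf_dvd_of_pow_eq_one h2)
      rw [← ho, hm] at h3
      have := hr.two_le
      have hm0 : 0 < m := by
        rcases Nat.eq_zero_or_pos m with h0 | h0
        · rw [h0, mul_zero] at hm; omega
        · exact h0
      nlinarith
    · rw [← pow_mul, mul_comm m r, ← hm]; exact ho1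
  exact ⟨n, by rw [← hn]; exact ho1⟩

/-- **swap**: two orthogonal fixed idempotents of the same rank -/
theorem rk_ne [Finite Γ] (hfam : FamSt E) (hS : Sml Γ) {K : Subgroup Γ} (hK : IsCarter K) {e f : Matrix ι ι E}
    (he : IsP e) (hf : IsP f) (hef : e * f = 0) (hKe : ∀ k ∈ K, T.ρ k e = e) (hKf : ∀ k ∈ K, T.ρ k f = f)
    (hr : rk e = rk f) : e = f := by
  have hNn := T.range_normal hD
  have hfe : f * e = 0 := by
    have := congrArg star hef
    rwa [star_mul, he.sym, hf.sym, star_zero] at this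
  -- the two families
  obtain ⟨g, hg⟩ := hfam ι (Fin 3) ![e, f, 1 - e - f] ![f, e, 1 - e - f] (by
      intro i
      fin_cases i
      · exact he
      · exact hf
      · refine ⟨?_, ?_⟩
        · change (1 - e - f) * (1 - e - f) = 1 - e - f
          simp only [sub_mul, mul_sub, one_mul, mul_one, he.idem, hf.idem, hef, hfe]
          abel
        · change star (1 - e - f) = 1 - e - f
          rw [star_sub, star_sub, star_one, he.sym, hf.sym]) (by
      intro i j hij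
      fin_cases i <;> fin_cases j <;> first | exact absurd rfl hij | skip
      · exact hef
      · change e * (1 - e - f) = 0
        rw [mul_sub, mul_sub, mul_one, he.idem, hef]; abel
      · exact hfe
      · change f * (1 - e - f) = 0
        rw [mul_sub, mul_sub, mul_one, hf.idem, hfe]; abel
      · change (1 - e - f) * e = 0
        rw [sub_mul, sub_mul, one_mul, he.idem, hfe]; abel
      · change (1 - e - f) * f = 0
        rw [sub_mul, sub_mul, one_mul, hf.idem, hef]; abel) (by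
      rw [Fin.sum_univ_three]
      change e + f + (1 - e - f) = 1
      abel) (by
      intro i
      fin_cases i
      · exact hf
      · exact he
      · refine ⟨?_, ?_⟩
        · change (1 - e - f) * (1 - e - f) = 1 - e - f
          simp only [sub_mul, mul_sub, one_mul, mul_one, he.idem, hf.idem, hef, hfe]
          abel
        · change star (1 - e - f) = 1 - e - f
          rw [star_sub, star_sub, star_one, he.sym, hf.sym]) (by
      intro i j hij
      fin_cases i <;> fin_cases j <;> first | exact absurd rfl hij | skip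
      · exact hfe
      · change f * (1 - e - f) = 0
        rw [mul_sub, mul_sub, mul_one, hf.idem, hfe]; abel
      · exact hef
      · change e * (1 - e - f) = 0
        rw [mul_sub, mul_sub, mul_one, he.idem, hef]; abel
      · change (1 - e - f) * f = 0
        rw [sub_mul, sub_mul, one_mul, hf.idem, hef]; abel
      · change (1 - e - f) * e = 0
        rw [sub_mul, sub_mul, one_mul, he.idem, hfe]; abel) (by
      rw [Fin.sum_univ_three]
      change f + e + (1 - e - f) = 1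
      abel) (by
      intro i
      fin_cases i
      · exact hr
      · exact hr.symm
      · rfl)
  have hge : T.ρ (T.j g) e = f := by rw [T.ρ_j]; exact hg 0
  have hgf : T.ρ (T.j g) f = e := by rw [T.ρ_j]; exact hg 1
  have hge' : T.ρ (T.j g)⁻¹ e = f := by rw [← hgf, T.ρ_inv]
  have hgf' : T.ρ (T.j g)⁻¹ f = e := by rw [← hge, T.ρ_inv]
  set X : Subgroup Γ := T.j.range ⊓ T.fixer e ⊓ T.fixer f with hX
  have hmem : ∀ {y : Γ}, y ∈ X ↔ (y ∈ T.j.range ∧ T.ρ y e = e) ∧ T.ρ y f = f := fun {y} => Iff.rfl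
  have key : ∀ y ∈ X, T.j g * y * (T.j g)⁻¹ ∈ X := by
    intro y hy
    rw [hmem] at hy ⊢
    refine ⟨⟨hNn.conj_mem _ hy.1.1 _, ?_⟩, ?_⟩
    · rw [T.ρ_mul, T.ρ_mul, hge', hy.2, hgf]
    · rw [T.ρ_mul, T.ρ_mul, hgf', hy.1.2, hge]
  have key' : ∀ y ∈ X, (T.j g)⁻¹ * y * T.j g ∈ X := by
    intro y hy
    rw [hmem] at hy ⊢
    refine ⟨⟨?_, ?_⟩, ?_⟩
    · have := hNn.conj_mem _ hy.1.1 (T.j g)⁻¹
      rwa [inv_inv] at this
    · rw [T.ρ_mul, T.ρ_mul, hge, hy.2, hgf']
    · rw [T.ρ_mul, T.ρ_mul, hgf, hy.1.2, hge']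
  have hs : T.j g ∈ K ⊔ X := by
    refine w_of_sml hS hK ?_ ?_
    · rw [mem_normalizer_iff]
      intro y
      refine ⟨key y, fun hy => ?_⟩
      have := key' _ hy
      have e1 : (T.j g)⁻¹ * (T.j g * y * (T.j g)⁻¹) * T.j g = y := by group
      rwa [e1] at this
    · intro k hk
      rw [hmem]
      have hk' := inv_mem hk
      refine ⟨⟨?_, ?_⟩, ?_⟩
      · have h1 : k * (T.j g)⁻¹ * k⁻¹ ∈ T.j.range := hNn.conj_mem _ (inv_mem ⟨g, rfl⟩) _
        have h2 := mul_mem (⟨g, rfl⟩ : T.j g ∈ T.j.range) h1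
        have e1 : T.j g * (k * (T.j g)⁻¹ * k⁻¹) = T.j g * k * (T.j g)⁻¹ * k⁻¹ := by group
        rwa [e1] at h2
      · rw [T.ρ_mul, T.ρ_mul, T.ρ_mul, hKe _ hk', hge', hKf _ hk, hgf]
      · rw [T.ρ_mul, T.ρ_mul, T.ρ_mul, hKf _ hk', hgf', hKe _ hk, hge]
  have hle : K ⊔ X ≤ T.fixer e := sup_le (fun k hk => hKe k hk) (fun y hy => (hmem.1 hy).1.2)
  have h1 := hle hs
  rw [mem_fixer, hge] at h1
  exact h1.symm

end TA

end Cfsg.Agent.H308.CA
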